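import Cfsg.Agent.Blocks.SectionSum
import Cfsg.Agent.Blocks.PrincipalSum
import Cfsg.Agent.Blocks.RootsMod
import Cfsg.Agent.CharBasics.Extra
import Cfsg.Agent.CharBasics.Avg
import Cfsg.Agent.CharBasics.Central

/-!
# Height zero characters of the principal block and a section: tools, and the case of a `p`-nilpotent centralizer

The squares of the section coordinates of the principal characters sum to the rank times the index; Galois
averaging bounds them from below.
-/

set_option autoImplicit false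
set_option linter.style.haveILetI false
set_option linter.unusedSectionVars false

namespace CfsgLib.HeightZeroSec

open Cfsg CfsgLib CfsgLib.Blocks CfsgLib.CharBasics Polynomial
open scoped ComplexConjugate

universe u

variable {G : Type u} [Group G] [Fintype G]

/-- A family of values given by one integer polynomial at the powers of a root of unity. -/
def PolyFam (N : ℕ) (z : ℕ → ℂ) : Prop := ∃ P : ℤ[X], ∀ j, z j = aeval (zetaRoot N ^ j) P

theorem PolyFam.add {N : ℕ} {z w : ℕ → ℂ} (h : PolyFam N z) (h' : PolyFam N w) : PolyFam N fun j => z j + w j := by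
  obtain ⟨P, hP⟩ := h
  obtain ⟨Q, hQ⟩ := h'
  exact ⟨P + Q, fun j => by simp [hP, hQ]⟩

theorem PolyFam.mul {N : ℕ} {z w : ℕ → ℂ} (h : PolyFam N z) (h' : PolyFam N w) : PolyFam N fun j => z j * w j := by
  obtain ⟨P, hP⟩ := h
  obtain ⟨Q, hQ⟩ := h'
  exact ⟨P * Q, fun j => by simp [hP, hQ]⟩

theorem PolyFam.int (N : ℕ) (c : ℤ) : PolyFam N fun _ => (c : ℂ) := ⟨C c, fun j => by simp⟩

theorem PolyFam.sum {N : ℕ} {ι : Type*} (s : Finset ι) (z : ι → ℕ → ℂ) (h : ∀ i ∈ s, PolyFam N (z i)) :
    PolyFam N fun j => ∑ i ∈ s, z i j := by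
  classical
  induction s using Finset.induction with
  | empty => exact ⟨0, fun j => by simp⟩
  | insert a s ha ih =>
    have h1 := (h a (Finset.mem_insert_self a s)).add (ih fun i hi => h i (Finset.mem_insert_of_mem hi))
    simpa [Finset.sum_insert ha] using h1

theorem PolyFam.char {A : Type*} [Group A] [Finite A] {N : ℕ} (hN : N ≠ 0) (hdvd : Nat.card A ∣ N) {χ : A → ℂ}
    (hχ : IsCharacter A χ) (g : A) : PolyFam N fun j => χ (g ^ j) := by
  obtain ⟨lam, hl, hv⟩ := exists_eigen hχ g
  haveI : NeZero N := ⟨hN⟩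
  have hlam : ∀ i, ∃ e < N, zetaRoot N ^ e = lam i := fun i => by
    refine (zetaRoot_prim hN).eq_pow_of_pow_eq_one ?_
    obtain ⟨d, hd⟩ := (orderOf_dvd_natCard g).trans hdvd
    rw [hd, pow_mul, hl i, one_pow]
  choose e he heq using hlam
  refine ⟨∑ i, X ^ e i, fun j => ?_⟩
  show χ (g ^ j) = _
  rw [hv, map_sum]
  refine Finset.sum_congr rfl fun i _ => ?_
  rw [map_pow, aeval_X, ← heq i, ← pow_mul, ← pow_mul, mul_comm]

/-- The conjugates of a nonzero algebraic integer have mean square at least one. -/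
theorem galois_avg {N : ℕ} (hN : N ≠ 0) (D : ℕ) (hD : D ≠ 0) (z : ℕ → ℂ) (hP : PolyFam N fun j => (D : ℂ) * z j)
    (hint : ∀ j, j.Coprime N → IsIntegral ℤ (z j)) (j₀ : ℕ) (hj₀ : j₀.Coprime N) (hne : z j₀ ≠ 0) :
    (∀ j, j.Coprime N → z j ≠ 0) ∧
      ((coprimeResidues N).card : ℝ) ≤ ∑ j ∈ coprimeResidues N, ‖z j‖ ^ 2 := by
  classical
  obtain ⟨P, hP⟩ := hP
  have hDC : (D : ℂ) ≠ 0 := Nat.cast_ne_zero.2 hD
  haveI : NeZero N := ⟨hN⟩
  have h1 : aeval (zetaRoot N) P ≠ 0 := by
    intro h0
    refine mul_ne_zero hDC hne ((hP j₀).trans ?_)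
    have hz := (zetaRoot_prim hN)
    have hdvd : cyclotomic N ℤ ∣ P := by
      rw [cyclotomic_eq_minpoly hz (Nat.pos_of_ne_zero hN)]
      exact minpoly.isIntegrallyClosed_dvd (hz.isIntegral (Nat.pos_of_ne_zero hN)) h0
    obtain ⟨q, rfl⟩ := hdvd
    have h2 : aeval (zetaRoot N ^ j₀) (cyclotomic N ℤ) = 0 := by
      rw [cyclotomic_eq_minpoly (hz.pow_of_coprime j₀ hj₀) (Nat.pos_of_ne_zero hN)]
      exact minpoly.aeval _ _
    rw [map_mul, h2, zero_mul]
  have hall : ∀ j, j.Coprime N → z j ≠ 0 := fun j hj h0 =>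
    aeval_conjugate_ne_zero hN P hj h1 ((hP j).symm.trans (by simp [h0]))
  refine ⟨hall, ?_⟩
  obtain ⟨R, hR⟩ := prod_coprime_int hN P
  set T := ∏ j ∈ coprimeResidues N, z j with hT
  have hTint : IsIntegral ℤ T := IsIntegral.prod _ fun j hj => hint j (Finset.mem_filter.1 hj).2
  have hTrat : T = (((R : ℚ) / ((D : ℚ) ^ (coprimeResidues N).card) : ℚ) : ℂ) := by
    rw [Finset.prod_congr rfl (fun j _ => (hP j).symm), Finset.prod_mul_distrib, Finset.prod_const] at hR
    push_cast
    rw [← hR, mul_div_cancel_left₀ _ (pow_ne_zero _ hDC)]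
  have hq : IsIntegral ℤ ((R : ℚ) / ((D : ℚ) ^ (coprimeResidues N).card)) :=
    (isIntegral_algebraMap_iff (algebraMap ℚ ℂ).injective).1 (by
      rw [show algebraMap ℚ ℂ ((R : ℚ) / ((D : ℚ) ^ (coprimeResidues N).card)) = T from hTrat.symm]
      exact hTint)
  obtain ⟨k, hk⟩ := IsIntegrallyClosed.isIntegral_iff.1 hq
  have hTk : T = (k : ℂ) := by rw [hTrat, ← hk]; simp
  have hk0 : k ≠ 0 := fun h => by
    rw [h, Int.cast_zero, hT] at hTk
    obtain ⟨j, hj, hj0⟩ := Finset.prod_eq_zero_iff.1 hTk
    exact hall j (Finset.mem_filter.1 hj).2 hj0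
  refine card_le_sum_of_one_le_prod _ _ (fun j hj => pow_pos (norm_pos_iff.mpr (hall j (Finset.mem_filter.1 hj).2)) 2) ?_
  rw [Finset.prod_pow, ← norm_prod, ← hT, hTk, Complex.norm_intCast]
  have : (1 : ℝ) ≤ |(k : ℝ)| := by exact_mod_cast Int.one_le_abs hk0
  exact one_le_pow₀ this

variable {p : ℕ} [hp : Fact p.Prime] {M : Ideal AlgInt}

/-- At a `p`-element a character is congruent to its degree. -/
theorem pelt_congr (hM : IsPModular p M) {χ : G → ℂ} (hχ : IsCharacter G χ) {x : G}
    (hx : ∃ k : ℕ, orderOf x = p ^ k) : MemLocalIdeal M (χ x - χ 1) := by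
  classical
  obtain ⟨k, hk⟩ := hx
  obtain ⟨lam, hl, hv⟩ := exists_eigen hχ x
  have h1 := hv 1
  have h0 := hv 0
  simp only [pow_one] at h1
  simp only [pow_zero] at h0
  rw [h1, h0, ← Finset.sum_sub_distrib]
  exact memLocalIdeal_sum hM _ fun i _ => eqMod_one_of_pow_eq_one hM k (by rw [← hk]; exact hl i)

theorem mem_center_cen (x : G) :
    (⟨x, Subgroup.mem_centralizer_singleton_iff.2 rfl⟩ : Subgroup.centralizer ({x} : Set G)) ∈ Subgroup.center _ :=
  Subgroup.mem_center_iff.2 fun g => Subtype.ext (Subgroup.mem_centralizer_singleton_iff.1 g.2)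

/-- The coefficients of the translate are algebraic integers. -/
theorem isIntegral_shift_inner {χ : G → ℂ} (hχ : IsCharacter G χ) (x : G)
    [Fintype (Subgroup.centralizer ({x} : Set G))] (ξ : IrrCharacter (Subgroup.centralizer ({x} : Set G))) :
    IsIntegral ℤ (classInner (shiftFun x χ) (ξ : Subgroup.centralizer ({x} : Set G) → ℂ)) := by
  classical
  set z : Subgroup.centralizer ({x} : Set G) := ⟨x, Subgroup.mem_centralizer_singleton_iff.2 rfl⟩ with hzdef
  have hz : z⁻¹ ∈ Subgroup.center _ := inv_mem (mem_center_cen x)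
  set ω : ℂ := (ξ : Subgroup.centralizer ({x} : Set G) → ℂ) z⁻¹ / (ξ : Subgroup.centralizer ({x} : Set G) → ℂ) 1 with hω
  have h1 := apply_one_ne_zero ξ.2
  have hωi : IsIntegral ℤ ω := by
    have h2 := isIntegral_centralChar ξ.2 z⁻¹
    have hc : Subgroup.centralizer ({z⁻¹} : Set (Subgroup.centralizer ({x} : Set G))) = ⊤ := by
      ext y
      simpa [Subgroup.mem_centralizer_singleton_iff] using (Subgroup.mem_center_iff.mp hz y)
    rwa [Cfsg.centralChar, hc, Subgroup.index_top, Nat.cast_one, one_mul] at h2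
  obtain ⟨m, hm⟩ := classInner_character_nat (CharBasics.isCharacter_restrict hχ _) ξ
  have hkey : classInner (shiftFun x χ) (ξ : Subgroup.centralizer ({x} : Set G) → ℂ) = conj ω * (m : ℂ) := by
    rw [← hm, classInner_eq, classInner_eq, mul_left_comm (conj ω)]
    congr 1
    rw [Finset.mul_sum]
    refine Fintype.sum_equiv (Equiv.mulLeft z) _ _ fun c => ?_
    have h3 : (ξ : Subgroup.centralizer ({x} : Set G) → ℂ) c =
        ω * (ξ : Subgroup.centralizer ({x} : Set G) → ℂ) (z * c) := by
      have h4 := center_mul ξ.2 hz (z * c)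
      rw [inv_mul_cancel_left] at h4
      rw [hω, div_mul_eq_mul_div, eq_div_iff h1]
      linear_combination h4
    rw [h3, map_mul]
    show χ (x * (c : G)) * (conj ω * conj ((ξ : Subgroup.centralizer ({x} : Set G) → ℂ) (z * c))) =
      conj ω * (χ (x * (c : G)) * conj ((ξ : Subgroup.centralizer ({x} : Set G) → ℂ) (z * c)))
    ring
  rw [hkey]
  exact (hωi.map (starRingEnd ℂ).toIntAlgHom).mul (isIntegral_algebraMap (R := ℤ) (x := (m : ℤ)))

/-- The sum over the regular part of a section does not vanish at a height zero principal character. -/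
theorem regSum_ne_zero (hM : IsPModular p M) {x : G} (hx : ∃ k : ℕ, orderOf x = p ^ k)
    [Fintype (Subgroup.centralizer ({x} : Set G))] {χ : IrrCharacter G} (hχ : χ ∈ principalBlock M G)
    (hdeg : ¬ p ∣ charDegree (χ : G → ℂ)) :
    regTotal p (shiftFun x (χ : G → ℂ)) ≠ 0 := by
  classical
  haveI : Fintype (IrrCharacter (Subgroup.centralizer ({x} : Set G))) := @Fintype.ofFinite _ finite_irrCharacter
  have hcls := isClassFunction_shiftFun (x := x) (CharBasics.isClassFunction (isCharacter_of_irr χ.2))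
  have hexp : regTotal p (shiftFun x (χ : G → ℂ)) = ∑ ξ : IrrCharacter (Subgroup.centralizer ({x} : Set G)),
      classInner (shiftFun x (χ : G → ℂ)) (ξ : Subgroup.centralizer ({x} : Set G) → ℂ) *
        regTotal p (ξ : Subgroup.centralizer ({x} : Set G) → ℂ) := by
    simp only [regTotal, Finset.mul_sum]
    rw [Finset.sum_comm]
    refine Finset.sum_congr rfl fun y _ => ?_
    split_ifs with hy
    · simp
    · conv_lhs => rw [classFun_expand hcls]
      simp [Finset.sum_apply, Pi.smul_apply, smul_eq_mul]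
  set b₀ := principalBlock M (Subgroup.centralizer ({x} : Set G)) with hb₀
  have h1 : ∑ ξ : IrrCharacter (Subgroup.centralizer ({x} : Set G)), (if ξ ∈ b₀ then
      classInner (shiftFun x (χ : G → ℂ)) (ξ : Subgroup.centralizer ({x} : Set G) → ℂ) *
        (ξ : Subgroup.centralizer ({x} : Set G) → ℂ) 1 else 0) = (χ : G → ℂ) x := by
    have h := sum_blockPart (M := M) hM hcls (1 : Subgroup.centralizer ({x} : Set G))
    rw [Finset.sum_eq_single b₀] at h
    · rw [ZStar.blockPart_apply] at h
      rw [h, shiftFun, Subgroup.coe_one, mul_one]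
    · intro b hb hne
      have h0 := secVal_eq_zero hM hx (mem_blockFinset.1 hb) (B := principalBlock M G) isPBlock_principal hχ
        (fun hi => hne ((ZStar.isInducedBlock_principal_iff hM ⟨_, hi⟩).1 hi)) (1 : Subgroup.centralizer ({x} : Set G))
      rwa [secVal, if_neg (by rw [orderOf_one]; exact hp.out.not_dvd_one)] at h0
    · exact fun h => absurd (mem_blockFinset.2 isPBlock_principal) h
  intro h0
  rw [hexp] at h0
  have hsmall : MemLocalIdeal M ((ZStar.regCard p (Subgroup.centralizer ({x} : Set G)) : ℂ) * (χ : G → ℂ) x -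
      ∑ ξ : IrrCharacter (Subgroup.centralizer ({x} : Set G)),
        classInner (shiftFun x (χ : G → ℂ)) (ξ : Subgroup.centralizer ({x} : Set G) → ℂ) *
          regTotal p (ξ : Subgroup.centralizer ({x} : Set G) → ℂ)) := by
    rw [← h1, Finset.mul_sum, ← Finset.sum_sub_distrib]
    refine memLocalIdeal_sum hM _ fun ξ _ => ?_
    split_ifs with hξ
    · have h2 := ZStar.omega_regSum_congr hM hξ
      rw [omega_regSum_eq] at h2
      have h3 := memLocalIdeal_mul_left hM (memLocalRing_mul hM
        (memLocalRing_of_isIntegral hM (isIntegral_shift_inner (isCharacter_of_irr χ.2) x ξ))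
        (memLocalRing_of_isIntegral hM (isIntegral_apply (isCharacter_of_irr ξ.2) 1))) (memLocalIdeal_neg h2)
      convert h3 using 1
      have h4 := apply_one_ne_zero ξ.2
      field_simp
      ring
    · rw [show regTotal p (ξ : Subgroup.centralizer ({x} : Set G) → ℂ) = 0 from ZStar.sum_regular_eq_zero hM hξ,
        mul_zero, mul_zero, sub_zero]
      exact memLocalIdeal_zero hM
  rw [h0, sub_zero] at hsmall
  have hu : ¬ MemLocalIdeal M ((χ : G → ℂ) x) := fun h => hdeg ((memLocalIdeal_natCast_iff hM _).1 (by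
    rw [← apply_one (isCharacter_of_irr χ.2)]
    simpa using memLocalIdeal_sub hM h (pelt_congr hM (isCharacter_of_irr χ.2) hx)))
  have hu' := memLocalIdeal_of_mul hM (memLocalRing_natCast hM _)
    (memLocalRing_of_isIntegral hM (isIntegral_apply (isCharacter_of_irr χ.2) x)) hsmall
  exact (hu'.elim (ZStar.not_small_regCard hM) hu)

/-- Column orthogonality over a section. -/
theorem sum_section_sq [Fintype (IrrCharacter G)] {x : G} (hx : ∃ k : ℕ, orderOf x = p ^ k)
    [Fintype (Subgroup.centralizer ({x} : Set G))] {w : Subgroup.centralizer ({x} : Set G) → ℂ}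
    (hw : IsClassFunction (Subgroup.centralizer ({x} : Set G)) w) :
    ∑ χ : IrrCharacter G, regTotal p (fun h => shiftFun x (χ : G → ℂ) h * w h) *
        conj (regTotal p fun h => shiftFun x (χ : G → ℂ) h * w h) =
      (Nat.card (Subgroup.centralizer ({x} : Set G)) : ℂ) * regTotal p fun h => w h * conj (w h) := by
  classical
  simp only [regTotal, map_sum, Finset.sum_mul_sum]
  rw [Finset.sum_comm, Finset.mul_sum]
  refine Finset.sum_congr rfl fun h _ => ?_
  rw [Finset.sum_comm]
  split_ifs with hh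
  · simp
  have hinner : ∀ h' : Subgroup.centralizer ({x} : Set G),
      ∑ χ : IrrCharacter G, shiftFun x (χ : G → ℂ) h * w h *
          conj (if p ∣ orderOf h' then 0 else shiftFun x (χ : G → ℂ) h' * w h') =
        if p ∣ orderOf h' then 0 else w h * conj (w h') *
          (if IsConj h h' then (Nat.card (Subgroup.centralizer ({x * (h : G)} : Set G)) : ℂ) else 0) := by
    intro h'
    split_ifs with h'' hc
    · simp
    all_goals
      refine Eq.trans (b := w h * conj (w h') * ∑ χ : IrrCharacter G,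
        (χ : G → ℂ) (x * (h : G)) * conj ((χ : G → ℂ) (x * (h' : G)))) ?_ ?_
      · rw [Finset.mul_sum]
        exact Finset.sum_congr rfl fun χ _ => by rw [map_mul]; simp only [shiftFun]; ring
    · rw [sum_col, if_pos ((isConj_mul_left_iff hx hp.out hh h'').2 hc)]
    · rw [sum_col, if_neg fun h0 => hc ((isConj_mul_left_iff hx hp.out hh h'').1 h0)]
  rw [Finset.sum_congr rfl fun h' _ => hinner h']
  have hterm : ∀ h' : Subgroup.centralizer ({x} : Set G), (if p ∣ orderOf h' then 0 else w h * conj (w h') *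
      (if IsConj h h' then (Nat.card (Subgroup.centralizer ({x * (h : G)} : Set G)) : ℂ) else 0)) =
      w h * conj (w h) * (Nat.card (Subgroup.centralizer ({x * (h : G)} : Set G)) : ℂ) *
        (if IsConj h h' then 1 else 0) := by
    intro h'
    by_cases hc : IsConj h h'
    · obtain ⟨d, rfl⟩ := isConj_iff.1 hc
      rw [if_neg (by rwa [show d * h * d⁻¹ = MulAut.conj d h from rfl, MulEquiv.orderOf_eq]), if_pos hc, if_pos hc,
        hw h d, mul_one]
    · rw [if_neg hc, if_neg hc, mul_zero, mul_zero, ite_self]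
  rw [Finset.sum_congr rfl fun h' _ => hterm h', ← Finset.mul_sum, Finset.sum_boole]
  have hcard : (Finset.univ.filter fun h' : Subgroup.centralizer ({x} : Set G) => IsConj h h').card *
      Nat.card (Subgroup.centralizer ({x * (h : G)} : Set G)) = Nat.card (Subgroup.centralizer ({x} : Set G)) := by
    have hce : (Subgroup.centralizer ({x * (h : G)} : Set G)) =
        (Subgroup.centralizer ({h} : Set (Subgroup.centralizer ({x} : Set G)))).map
          (Subgroup.centralizer ({x} : Set G)).subtype := by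
      refine le_antisymm (fun g hg => ?_) ?_
      · have hg' := Subgroup.mem_centralizer_singleton_iff.1 hg
        have hcx : Commute x (h : G) := (Subgroup.mem_centralizer_singleton_iff.1 h.2).symm
        have hu := ZStar.part_unique (p := p) rfl hcx hx (by rw [Subgroup.orderOf_coe]; exact hh)
        have hconj := ZStar.part_conj (p := p) (x * (h : G)) g
        rw [show g * (x * (h : G)) * g⁻¹ = x * (h : G) from mul_inv_eq_iff_eq_mul.2 hg', hu.1, hu.2] at hconj
        have e1 : g * x = x * g := mul_inv_eq_iff_eq_mul.1 hconj.1.symm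
        refine ⟨⟨g, Subgroup.mem_centralizer_singleton_iff.2 e1⟩, Subgroup.mem_centralizer_singleton_iff.2
          (Subtype.ext (mul_inv_eq_iff_eq_mul.1 hconj.2.symm)), rfl⟩
      · rintro _ ⟨g, hg, rfl⟩
        have h1 : (g : G) * x = x * g := Subgroup.mem_centralizer_singleton_iff.1 g.2
        have h2 : (g : G) * h = h * g := congrArg Subtype.val (Subgroup.mem_centralizer_singleton_iff.1 hg)
        exact Subgroup.mem_centralizer_singleton_iff.2
          ((show Commute (g : G) x from h1).mul_right (show Commute (g : G) (h : G) from h2))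
    have h3 := Subgroup.index_mul_card (Subgroup.centralizer ({h} : Set (Subgroup.centralizer ({x} : Set G))))
    rw [← card_conjClass h, Nat.card_eq_fintype_card (α := {h' // IsConj h h'}), Fintype.card_subtype] at h3
    rw [hce, Subgroup.card_map_of_injective Subtype.val_injective]
    exact h3
  rw [← hcard]
  push_cast
  ring

/-- The coprime power twist of the irreducible characters. -/
noncomputable def pw (j : ℕ) (χ : IrrCharacter G) : IrrCharacter G :=
  if h : j.Coprime (Nat.card G) then powChar h χ else χ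

theorem pw_apply {j : ℕ} (hj : j.Coprime (Nat.card G)) (χ : IrrCharacter G) (g : G) :
    (pw j χ : G → ℂ) g = (χ : G → ℂ) (g ^ j) := by rw [pw, dif_pos hj, powChar_apply]

/-- Averaging: a weight with total at most `p² R` and averages at least `R` on the height zero characters. -/
theorem bound (hM : IsPModular p M) [Fintype (IrrCharacter G)] (q : IrrCharacter G → ℝ) (hq : ∀ χ, 0 ≤ q χ) {R : ℝ}
    (hR : 0 < R) (hsum : ∑ χ, q χ ≤ (p : ℝ) ^ 2 * R)
    (hlow : ∀ χ ∈ principalBlock M G, ¬ p ∣ charDegree (χ : G → ℂ) →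
      ((coprimeResidues (Nat.card G)).card : ℝ) * R ≤ ∑ j ∈ coprimeResidues (Nat.card G), q (pw j χ)) :
    Nat.card {χ : IrrCharacter G // χ ∈ principalBlock M G ∧ ¬ p ∣ charDegree (χ : G → ℂ)} ≤ p ^ 2 := by
  classical
  set S := Finset.univ.filter fun χ : IrrCharacter G => χ ∈ principalBlock M G ∧ ¬ p ∣ charDegree (χ : G → ℂ) with hS
  rw [Nat.card_eq_fintype_card, Fintype.card_subtype, ← hS]
  have h1 := Finset.sum_le_sum (s := S) fun χ hχ => hlow χ (Finset.mem_filter.1 hχ).2.1 (Finset.mem_filter.1 hχ).2.2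
  rw [Finset.sum_const, nsmul_eq_mul, Finset.sum_comm] at h1
  have h2 : ∀ j ∈ coprimeResidues (Nat.card G), ∑ χ ∈ S, q (pw j χ) ≤ (p : ℝ) ^ 2 * R := by
    intro j hj
    have hc : j.Coprime (Nat.card G) := (Finset.mem_filter.1 hj).2
    have hinj : Function.Injective (pw (G := G) j) := fun a b h => powChar_injective hc (by
      unfold pw at h; rwa [dif_pos hc, dif_pos hc] at h)
    rw [← Finset.sum_image fun a _ b _ h => hinj h]
    exact (Finset.sum_le_univ_sum_of_nonneg hq).trans hsum
  have h3 := h1.trans (Finset.sum_le_sum h2)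
  rw [Finset.sum_const, nsmul_eq_mul] at h3
  have hJ : (0 : ℝ) < ((coprimeResidues (Nat.card G)).card : ℝ) := by
    exact_mod_cast coprimeResidues_card_pos Nat.card_pos.ne'
  have h4 : (S.card : ℝ) ≤ (p : ℝ) ^ 2 := by
    refine le_of_mul_le_mul_right ?_ (mul_pos hJ hR)
    linarith
  exact_mod_cast h4

/-- The case of a centralizer with a normal complement of index at most `p²`. -/
theorem bound_of_complement (hM : IsPModular p M) {x : G} (hx : ∃ k : ℕ, orderOf x = p ^ k)
    (K : Subgroup (Subgroup.centralizer ({x} : Set G))) (hK : ∀ h, h ∈ K ↔ ¬ p ∣ orderOf h)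
    (hidx : K.index ≤ p ^ 2) :
    Nat.card {χ : IrrCharacter G // χ ∈ principalBlock M G ∧ ¬ p ∣ charDegree (χ : G → ℂ)} ≤ p ^ 2 := by
  classical
  haveI : Fintype (IrrCharacter G) := @Fintype.ofFinite _ finite_irrCharacter
  haveI : Fintype (Subgroup.centralizer ({x} : Set G)) := Fintype.ofFinite _
  haveI : Fintype K := Fintype.ofFinite _
  let c : IrrCharacter G → ℂ := fun χ => (Nat.card K : ℂ)⁻¹ * regTotal p (shiftFun x (χ : G → ℂ))
  have hKC : (Nat.card K : ℂ) ≠ 0 := Nat.cast_ne_zero.2 Nat.card_pos.ne'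
  refine bound hM (fun χ => ‖c χ‖ ^ 2) (fun χ => by positivity) one_pos ?_ fun χ hχ hdeg => ?_
  · have h := sum_section_sq hx (w := fun _ : Subgroup.centralizer ({x} : Set G) => (1 : ℂ)) (fun _ _ => rfl)
    simp only [mul_one, map_one] at h
    have hreg : regTotal p (fun _ : Subgroup.centralizer ({x} : Set G) => (1 : ℂ)) = (Nat.card K : ℂ) := by
      rw [regTotal, Finset.sum_ite, Finset.sum_const_zero, zero_add, Finset.sum_const, nsmul_one, Nat.card_eq_fintype_card,
        Fintype.card_subtype]
      congr 2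
      exact Finset.filter_congr fun h _ => (hK h).symm
    rw [hreg, ← K.index_mul_card, Nat.cast_mul] at h
    have h2 : ((∑ χ, ‖c χ‖ ^ 2 : ℝ) : ℂ) = ((K.index : ℝ) : ℂ) := by
      push_cast
      have h3 : ∀ χ : IrrCharacter G, ((‖c χ‖ : ℂ)) ^ 2 = c χ * conj (c χ) := fun χ => (Complex.mul_conj' _).symm
      simp only [h3, c, map_mul, map_inv₀, map_natCast]
      rw [Finset.sum_congr rfl (g := fun χ : IrrCharacter G => ((Nat.card K : ℂ)⁻¹ * (Nat.card K : ℂ)⁻¹) *
        (regTotal p (shiftFun x (χ : G → ℂ)) * conj (regTotal p (shiftFun x (χ : G → ℂ))))) (fun _ _ => by ring),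
        ← Finset.mul_sum, h]
      field_simp
    rw [Complex.ofReal_inj.1 h2, mul_one]
    exact_mod_cast hidx
  · rw [mul_one]
    let z : ℕ → ℂ := fun j => (Nat.card K : ℂ)⁻¹ * ∑ h : Subgroup.centralizer ({x} : Set G),
      if p ∣ orderOf h then 0 else (χ : G → ℂ) ((x * (h : G)) ^ j)
    have hz : ∀ j : ℕ, j.Coprime (Nat.card G) → z j = c (pw j χ) := fun j hj => by
      simp only [z, c, regTotal, shiftFun, pw_apply hj]
    have hpoly : PolyFam (Nat.card G) fun j => (Nat.card K : ℂ) * z j := by
      have h := PolyFam.sum (N := Nat.card G) Finset.univ (fun (h : Subgroup.centralizer ({x} : Set G)) j =>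
        if p ∣ orderOf h then 0 else (χ : G → ℂ) ((x * (h : G)) ^ j)) (fun h _ => by
          split_ifs
          · exact ⟨0, fun j => by simp⟩
          · exact PolyFam.char Nat.card_pos.ne' dvd_rfl (isCharacter_of_irr χ.2) _)
      simpa [z, mul_inv_cancel_left₀ hKC] using h
    have hint : ∀ j : ℕ, j.Coprime (Nat.card G) → IsIntegral ℤ (z j) := by
      intro j hj
      rw [hz j hj]
      show IsIntegral ℤ ((Nat.card K : ℂ)⁻¹ * regTotal p (shiftFun x (pw j χ : G → ℂ)))
      have h := isIntegral_avg_central (CharBasics.isCharacter_restrict (isCharacter_of_irr (pw j χ).2)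
        (Subgroup.centralizer ({x} : Set G))) (mem_center_cen x) K
      convert h using 2
      rw [regTotal, Finset.sum_ite, Finset.sum_const_zero, zero_add]
      exact Finset.sum_subtype _ (fun h => by simp [hK]) (fun h => shiftFun x (pw j χ : G → ℂ) h)
    have h1 : pw 1 χ = χ := Subtype.ext (funext fun g => by rw [pw_apply (Nat.coprime_one_left _), pow_one])
    refine (galois_avg Nat.card_pos.ne' (Nat.card K) Nat.card_pos.ne' z hpoly hint 1 (Nat.coprime_one_left _) ?_).2.trans
      (le_of_eq (Finset.sum_congr rfl fun j hj => by rw [hz j (Finset.mem_filter.1 hj).2]))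
    rw [hz 1 (Nat.coprime_one_left _), h1]
    exact mul_ne_zero (inv_ne_zero hKC) (regSum_ne_zero hM hx hχ hdeg)

end CfsgLib.HeightZeroSec
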