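import Cfsg.Agent.ZStar.PartChar
import Mathlib.GroupTheory.Transfer
import Mathlib.GroupTheory.SpecificGroups.Cyclic

/-!
# Group theory for a section with small centralizer: regular elements, singular elements
-/

set_option autoImplicit false
set_option linter.style.haveILetI false
set_option linter.unusedSectionVars false

namespace CfsgLib.HeightZeroSec

open Cfsg CfsgLib CfsgLib.ZStar

universe u

variable {p : ℕ} [hp : Fact p.Prime] {A : Type u} [Group A] [Finite A]

/-- Burnside: the regular elements form a subgroup of index the Sylow order. -/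
theorem exists_regular_subgroup (P : Sylow p A)
    (hN : Subgroup.normalizer ((P : Subgroup A) : Set A) ≤ Subgroup.centralizer ((P : Subgroup A) : Set A)) :
    ∃ K : Subgroup A, (∀ h, h ∈ K ↔ ¬ p ∣ orderOf h) ∧ K.index = Nat.card P := by
  refine ⟨(MonoidHom.transferSylow P hN).ker, fun h => ⟨fun hh hd => ?_, fun hd => ?_⟩,
    (MonoidHom.ker_transferSylow_isComplement' P hN).symm.index_eq_card⟩
  · exact MonoidHom.not_dvd_card_ker_transferSylow P hN
      (hd.trans (by simpa [Subgroup.orderOf_mk] using orderOf_dvd_natCard (⟨h, hh⟩ : (MonoidHom.transferSylow P hN).ker)))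
  · obtain ⟨k, hk⟩ := P.2 (MonoidHom.transferSylow P hN h)
    rw [MonoidHom.mem_ker]
    exact eq_one_of_dvd (k := k) (orderOf_dvd_of_pow_eq_one hk)
      fun hd' => hd (hd'.trans (orderOf_map_dvd _ h))

variable (P : Sylow p A)

/-- The part of order a power of `p` of an element centralizing a Sylow subgroup lies in it. -/
theorem pelt_mem {u : A} (hu : u ∈ Subgroup.centralizer ((P : Subgroup A) : Set A))
    (hk : ∃ k : ℕ, orderOf u = p ^ k) : u ∈ (P : Subgroup A) := by
  obtain ⟨k, hk⟩ := hk
  have h1 : IsPGroup p (Subgroup.zpowers u ⊔ (P : Subgroup A) : Subgroup A) :=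
    IsPGroup.to_sup_of_normal_right' (IsPGroup.of_card (n := k) (by rw [Nat.card_zpowers, hk])) P.2
      ((Subgroup.zpowers_le.2 hu).trans (Subgroup.centralizer_le_normalizer _))
  have h2 := P.3 h1 le_sup_right
  exact h2 ▸ Subgroup.mem_sup_left (Subgroup.mem_zpowers u)

variable (hP : Nat.card P = p)

include hP in
theorem zpowers_eq {u : A} (hu : u ∈ (P : Subgroup A)) (h1 : u ≠ 1) : Subgroup.zpowers u = (P : Subgroup A) := by
  haveI : Finite (P : Subgroup A) := inferInstance
  refine Subgroup.eq_of_le_of_card_ge (Subgroup.zpowers_le.2 hu) ?_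
  rw [Nat.card_zpowers]
  have h2 : orderOf u ∣ p := by
    rw [← hP]
    simpa [Subgroup.orderOf_mk] using orderOf_dvd_natCard (⟨u, hu⟩ : (P : Subgroup A))
  rcases (Nat.dvd_prime hp.out).1 h2 with h | h
  · exact absurd (orderOf_eq_one_iff.1 h) h1
  · exact le_of_eq (by rw [h]; exact hP)

include hP in
theorem ppart_of_singular {u : A} (hu : u ∈ Subgroup.centralizer ((P : Subgroup A) : Set A)) (hd : p ∣ orderOf u) :
    ppart p u ∈ (P : Subgroup A) ∧ ppart p u ≠ 1 ∧ Subgroup.zpowers (ppart p u) = (P : Subgroup A) := by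
  obtain ⟨h1, -, h3, h4, h5, -⟩ := part_spec (p := p) u
  have hm := pelt_mem P ((Subgroup.zpowers_le.2 hu) h5) h3
  have hne : ppart p u ≠ 1 := fun h => by
    rw [h, one_mul] at h1
    rw [h1] at h4
    exact h4 hd
  exact ⟨hm, hne, zpowers_eq P hP hm hne⟩

include hP in
/-- A singular element is conjugate into the centralizer of the Sylow subgroup. -/
theorem exists_conj_singular {a : A} (ha : p ∣ orderOf a) :
    ∃ c : A, c * a * c⁻¹ ∈ Subgroup.centralizer ((P : Subgroup A) : Set A) := by
  obtain ⟨h1, h2, ⟨k, hk⟩, h4, -, -⟩ := part_spec (p := p) a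
  obtain ⟨Q, hQ⟩ := (IsPGroup.of_card (n := k) (by rw [Nat.card_zpowers, hk]) :
    IsPGroup p (Subgroup.zpowers (ppart p a))).exists_le_sylow
  obtain ⟨c, hc⟩ := MulAction.exists_smul_eq A Q P
  have hmem : c * ppart p a * c⁻¹ ∈ (P : Subgroup A) := by
    rw [← hc, Sylow.coe_subgroup_smul]
    exact Subgroup.smul_mem_pointwise_smul _ _ _ (hQ (Subgroup.mem_zpowers _))
  have hne : c * ppart p a * c⁻¹ ≠ 1 := fun h => by
    rw [conj_eq_one_iff.1 h, one_mul] at h1
    rw [h1] at h4
    exact h4 ha
  refine ⟨c, Subgroup.mem_centralizer_iff.2 fun v hv => ?_⟩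
  obtain ⟨i, rfl⟩ := Subgroup.mem_zpowers_iff.1 ((zpowers_eq P hP hmem hne).symm ▸ hv)
  have hcom : Commute a (ppart p a) := by
    have h := (Commute.refl (ppart p a)).mul_right h2
    rw [h1] at h
    exact h.symm
  exact ((hcom.map (MulAut.conj c).toMonoidHom).zpow_right i).symm.eq

include hP in
/-- The Sylow centralizer has a subgroup of regular elements of index `p`. -/
theorem card_singular_centralizer :
    Nat.card {u : Subgroup.centralizer ((P : Subgroup A) : Set A) // p ∣ orderOf u} * p =
      Nat.card (Subgroup.centralizer ((P : Subgroup A) : Set A)) * (p - 1) := by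
  classical
  haveI : IsCyclic P := isCyclic_of_prime_card hP
  have hle : (P : Subgroup A) ≤ Subgroup.centralizer ((P : Subgroup A) : Set A) := fun a ha =>
    Subgroup.mem_centralizer_iff.2 fun b hb =>
      congrArg Subtype.val ((IsCyclic.commGroup (α := P)).mul_comm ⟨b, hb⟩ ⟨a, ha⟩)
  let P' : Sylow p (Subgroup.centralizer ((P : Subgroup A) : Set A)) := P.subtype hle
  have hN : Subgroup.normalizer (P'.toSubgroup : Set (Subgroup.centralizer ((P : Subgroup A) : Set A))) ≤
      Subgroup.centralizer (P'.toSubgroup : Set (Subgroup.centralizer ((P : Subgroup A) : Set A))) := by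
    intro g _
    refine Subgroup.mem_centralizer_iff.2 fun v hv => Subtype.ext ?_
    exact Subgroup.mem_centralizer_iff.1 g.2 _ hv
  obtain ⟨K, hK, hidx⟩ := exists_regular_subgroup P' hN
  have hcard : Nat.card P' = p := (Nat.card_congr (Subgroup.subgroupOfEquivOfLe hle).toEquiv).trans hP
  rw [hcard] at hidx
  have h1 := Nat.card_congr (Equiv.sumCompl fun u : Subgroup.centralizer ((P : Subgroup A) : Set A) => p ∣ orderOf u)
  rw [Nat.card_sum] at h1
  have h2 : Nat.card {u : Subgroup.centralizer ((P : Subgroup A) : Set A) // ¬ p ∣ orderOf u} = Nat.card K :=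
    Nat.card_congr (Equiv.subtypeEquivRight fun u => (hK u).symm)
  have h3 := K.index_mul_card
  rw [hidx] at h3
  have h4 : Nat.card {u : Subgroup.centralizer ((P : Subgroup A) : Set A) // p ∣ orderOf u} + Nat.card K =
      p * Nat.card K := by rw [h3, ← h2, h1]
  rw [← h3, show Nat.card {u : Subgroup.centralizer ((P : Subgroup A) : Set A) // p ∣ orderOf u} = (p - 1) * Nat.card K by
    rw [Nat.sub_mul, one_mul]; omega]
  ring

include hP in
theorem conj_mem_normalizer {c u : A} (hu : u ∈ Subgroup.centralizer ((P : Subgroup A) : Set A))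
    (hd : p ∣ orderOf u) (hc : c * u * c⁻¹ ∈ Subgroup.centralizer ((P : Subgroup A) : Set A)) :
    c ∈ Subgroup.normalizer ((P : Subgroup A) : Set A) := by
  have hd' : p ∣ orderOf (c * u * c⁻¹) := by
    rwa [show c * u * c⁻¹ = MulAut.conj c u from rfl, MulEquiv.orderOf_eq]
  have h1 := ppart_of_singular P hP hu hd
  have h2 := ppart_of_singular P hP hc hd'
  rw [(part_conj (p := p) u c).1] at h2
  have e : (P : Subgroup A).map (MulAut.conj c).toMonoidHom = (P : Subgroup A) := by
    conv_lhs => rw [← h1.2.2]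
    rw [MonoidHom.map_zpowers]
    exact h2.2.2
  refine Subgroup.mem_normalizer_iff.2 fun h => ⟨fun hh => ?_, fun hh => ?_⟩
  · exact e ▸ ⟨h, hh, rfl⟩
  · rw [← e] at hh
    obtain ⟨h', hh', he⟩ := hh
    exact (MulAut.conj c).injective he ▸ hh'

theorem conj_mem_centralizer {c u : A} (hu : u ∈ Subgroup.centralizer ((P : Subgroup A) : Set A))
    (hc : c ∈ Subgroup.normalizer ((P : Subgroup A) : Set A)) :
    c⁻¹ * u * c ∈ Subgroup.centralizer ((P : Subgroup A) : Set A) := by
  refine Subgroup.mem_centralizer_iff.2 fun v hv => ?_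
  have h := Subgroup.mem_centralizer_iff.1 hu _ ((Subgroup.mem_normalizer_iff.1 hc v).1 hv)
  calc v * (c⁻¹ * u * c) = c⁻¹ * (c * v * c⁻¹ * u) * c := by group
    _ = c⁻¹ * (u * (c * v * c⁻¹)) * c := by rw [h]
    _ = c⁻¹ * u * c * v := by group

include hP in
/-- The number of singular elements. -/
theorem card_singular :
    Nat.card {a : A // p ∣ orderOf a} * (p * ((Subgroup.centralizer ((P : Subgroup A) : Set A)).relIndex
      (Subgroup.normalizer ((P : Subgroup A) : Set A)))) = Nat.card A * (p - 1) := by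
  classical
  set C := Subgroup.centralizer ((P : Subgroup A) : Set A) with hC
  set N := Subgroup.normalizer ((P : Subgroup A) : Set A) with hN
  choose cf hcf using fun a : {a : A // p ∣ orderOf a} => exists_conj_singular P hP a.2
  let e : A × {u : C // p ∣ orderOf u} ≃ {a : A // p ∣ orderOf a} × N :=
    { toFun := fun z =>
        let a : {a : A // p ∣ orderOf a} := ⟨z.1 * (z.2.1 : A) * z.1⁻¹, by
          rw [show z.1 * (z.2.1 : A) * z.1⁻¹ = MulAut.conj z.1 (z.2.1 : A) from rfl, MulEquiv.orderOf_eq,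
            Subgroup.orderOf_coe]
          exact z.2.2⟩
        (a, ⟨cf a * z.1, conj_mem_normalizer P hP z.2.1.2 (by rw [Subgroup.orderOf_coe]; exact z.2.2) (by
          have h := hcf a
          rwa [show cf a * z.1 * (z.2.1 : A) * (cf a * z.1)⁻¹ = cf a * (z.1 * (z.2.1 : A) * z.1⁻¹) * (cf a)⁻¹ by
            group])⟩)
      invFun := fun w => ((cf w.1)⁻¹ * (w.2 : A),
        ⟨⟨(w.2 : A)⁻¹ * (cf w.1 * (w.1 : A) * (cf w.1)⁻¹) * (w.2 : A),
          conj_mem_centralizer P (hcf w.1) w.2.2⟩, by
          rw [← Subgroup.orderOf_coe]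
          show p ∣ orderOf ((w.2 : A)⁻¹ * (cf w.1 * (w.1 : A) * (cf w.1)⁻¹) * (w.2 : A))
          rw [show (w.2 : A)⁻¹ * (cf w.1 * (w.1 : A) * (cf w.1)⁻¹) * (w.2 : A) =
            MulAut.conj ((w.2 : A)⁻¹ * cf w.1) (w.1 : A) by rw [MulAut.conj_apply]; group, MulEquiv.orderOf_eq]
          exact w.1.2⟩)
      left_inv := fun z => by
        refine Prod.ext ?_ (Subtype.ext (Subtype.ext ?_))
        · simp
        · simp only [mul_inv_rev]
          group
      right_inv := fun w => by
        have e1 : ((cf w.1)⁻¹ * (w.2 : A)) * ((w.2 : A)⁻¹ * (cf w.1 * (w.1 : A) * (cf w.1)⁻¹) * (w.2 : A)) *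
            ((cf w.1)⁻¹ * (w.2 : A))⁻¹ = (w.1 : A) := by group
        refine Prod.ext (Subtype.ext e1) (Subtype.ext ?_)
        show cf ⟨_, _⟩ * ((cf w.1)⁻¹ * (w.2 : A)) = (w.2 : A)
        simp only [e1]
        simp }
  have h1 := Nat.card_congr e
  rw [Nat.card_prod, Nat.card_prod] at h1
  have h2 : C.relIndex N * Nat.card C = Nat.card N := by
    have := Subgroup.relIndex_mul_relIndex ⊥ C N bot_le (Subgroup.centralizer_le_normalizer _)
    rwa [Subgroup.relIndex_bot_left, Subgroup.relIndex_bot_left, mul_comm] at this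
  have h3 := card_singular_centralizer P hP
  refine Nat.eq_of_mul_eq_mul_left (Nat.card_pos : 0 < Nat.card C) ?_
  calc Nat.card C * (Nat.card {a : A // p ∣ orderOf a} * (p * C.relIndex N))
      = Nat.card {a : A // p ∣ orderOf a} * (C.relIndex N * Nat.card C) * p := by ring
    _ = Nat.card A * (Nat.card {u : C // p ∣ orderOf u} * p) := by rw [h2, ← h1]; ring
    _ = Nat.card A * (Nat.card C * (p - 1)) := by rw [h3]
    _ = Nat.card C * (Nat.card A * (p - 1)) := by ring

include hP in
theorem relIndex_dvd_pred :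
    (Subgroup.centralizer ((P : Subgroup A) : Set A)).relIndex (Subgroup.normalizer ((P : Subgroup A) : Set A)) ∣
      p - 1 := by
  haveI : IsCyclic P := isCyclic_of_prime_card hP
  have key := Subgroup.card_dvd_of_injective _
    (QuotientGroup.kerLift_injective (P : Subgroup A).normalizerMonoidHom)
  rw [Subgroup.normalizerMonoidHom_ker, ← Subgroup.index, ← Subgroup.relIndex, IsCyclic.card_mulAut, hP,
    Nat.totient_prime hp.out] at key
  exact key

end CfsgLib.HeightZeroSec
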