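import Cfsg.Agent.Blocks.HeightZeroSec.Quad
import Cfsg.Agent.ZStar.PartChar
import Cfsg.Agent.BrauerInd.Galois

/-!
# Functions on the quotient by a central p-subgroup through the lifts of the regular parts
-/

set_option autoImplicit false
set_option linter.style.haveILetI false
set_option linter.unusedSectionVars false

namespace CfsgLib.HeightZeroSec

open Cfsg CfsgLib CfsgLib.Blocks CfsgLib.CharBasics CfsgLib.ZStar CfsgLib.BrauerInd
open scoped ComplexConjugate

universe u

variable {p : ℕ} [hp : Fact p.Prime] {H : Type u} [Group H] [Finite H] (Z : Subgroup H) [Z.Normal]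

/-- The regular lift of the regular part of a coset. -/
noncomputable def lift (p : ℕ) [Fact p.Prime] (a : H ⧸ Z) : H := prest p (Quotient.out a)

variable (hc : Z ≤ Subgroup.center H) (hZ : IsPGroup p Z)

include hc hZ in
theorem prest_mul_mem (h : H) {z : H} (hz : z ∈ Z) : prest p (h * z) = prest p h := by
  obtain ⟨h1, h2, ⟨k, hk⟩, h4, -, -⟩ := part_spec (p := p) h
  have hcz : ∀ g : H, Commute g z := fun g => Subgroup.mem_center_iff.1 (hc hz) g
  obtain ⟨l, hl⟩ := (IsPGroup.iff_orderOf.1 hZ) ⟨z, hz⟩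
  rw [Subgroup.orderOf_mk] at hl
  refine (part_unique (p := p) (a := ppart p h * z) (b := prest p h) ?_ ?_ ?_ h4).2
  · rw [mul_assoc, ← (hcz _).eq, ← mul_assoc, h1]
  · exact h2.mul_left (hcz _).symm
  · obtain ⟨j, -, hj⟩ := (Nat.dvd_prime_pow hp.out).1 ((hcz _).orderOf_mul_dvd_mul_orderOf.trans
      (show orderOf (ppart p h) * orderOf z ∣ p ^ (k + l) by rw [hk, hl, pow_add]))
    exact ⟨j, hj⟩

include hc hZ in
theorem lift_mk (h : H) : lift Z p (QuotientGroup.mk' Z h) = prest p h := by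
  obtain ⟨z, hz⟩ := QuotientGroup.mk_out_eq_mul Z h
  rw [lift, QuotientGroup.mk'_apply, hz, prest_mul_mem Z hc hZ h z.2]

include hc hZ in
theorem mk_lift (a : H ⧸ Z) : QuotientGroup.mk' Z (lift Z p a) = prest p a := by
  obtain ⟨h, rfl⟩ := QuotientGroup.mk'_surjective Z a
  rw [lift_mk Z hc hZ h, (part_map (p := p) (QuotientGroup.mk' Z) h).2]

theorem lift_regular (a : H ⧸ Z) : ¬ p ∣ orderOf (lift Z p a) := (part_spec (p := p) _).2.2.2.1

include hc hZ in
theorem isClassFunction_lift {f : H → ℂ} (hf : IsClassFunction H f) :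
    IsClassFunction (H ⧸ Z) fun a => f (lift Z p a) := by
  intro a b
  obtain ⟨g, rfl⟩ := QuotientGroup.mk'_surjective Z a
  obtain ⟨c, rfl⟩ := QuotientGroup.mk'_surjective Z b
  simp only [← map_inv, ← map_mul, lift_mk Z hc hZ]
  rw [(part_conj (p := p) g c).2]
  exact hf _ _

include hc hZ in
theorem regTotal_lift [Fintype H] [Fintype (H ⧸ Z)] (F : H → ℂ) :
    regTotal p (fun a : H ⧸ Z => F (lift Z p a)) = regTotal p F := by
  classical
  rw [regTotal, regTotal, Finset.sum_ite, Finset.sum_ite, Finset.sum_const_zero, zero_add, Finset.sum_const_zero,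
    zero_add]
  refine Finset.sum_nbij' (lift Z p) (QuotientGroup.mk' Z) (fun a _ => Finset.mem_filter.2 ⟨Finset.mem_univ _, lift_regular Z a⟩)
    (fun h hh => Finset.mem_filter.2 ⟨Finset.mem_univ _, fun hd => (Finset.mem_filter.1 hh).2 (hd.trans (orderOf_map_dvd _ h))⟩)
    (fun a ha => ?_) (fun h hh => ?_) fun a _ => rfl
  · rw [mk_lift Z hc hZ, (part_of_regular (p := p) (Finset.mem_filter.1 ha).2).2]
  · rw [lift_mk Z hc hZ, (part_of_regular (p := p) (Finset.mem_filter.1 hh).2).2]

theorem sum_comp_mk [Fintype H] [Fintype (H ⧸ Z)] [Fintype Z] (F : H ⧸ Z → ℂ) :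
    ∑ h, F (QuotientGroup.mk' Z h) = (Nat.card Z : ℂ) * ∑ a, F a := by
  rw [Fintype.sum_equiv Subgroup.groupEquivQuotientProdSubgroup (fun h => F (QuotientGroup.mk' Z h))
    (fun w => F w.1) (fun h => rfl), Fintype.sum_prod_type]
  simp [Finset.mul_sum, Nat.card_eq_fintype_card]

include hc hZ in
/-- The coordinates of a lifted function are algebraic integers. -/
theorem isIntegral_inner_lift [Fintype H] [Fintype (H ⧸ Z)] [Fintype Z] {f : H → ℂ} (hf : IsClassFunction H f)
    (hint : ∀ ξ : IrrCharacter H, IsIntegral ℤ (classInner f (ξ : H → ℂ))) (φ : IrrCharacter (H ⧸ Z)) :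
    IsIntegral ℤ (classInner (fun a => f (lift Z p a)) (φ : H ⧸ Z → ℂ)) := by
  classical
  haveI : Fintype (IrrCharacter H) := @Fintype.ofFinite _ finite_irrCharacter
  let ψ : IrrCharacter H := ⟨fun h => (φ : H ⧸ Z → ℂ) (QuotientGroup.mk' Z h),
    irr_comp_of_surjective φ.2 _ (QuotientGroup.mk'_surjective Z)⟩
  have h1 : classInner (fun a => f (lift Z p a)) (φ : H ⧸ Z → ℂ) = classInner (fun h => f (prest p h)) (ψ : H → ℂ) := by
    rw [classInner_eq, classInner_eq]
    have h2 := sum_comp_mk Z (fun a => f (lift Z p a) * conj ((φ : H ⧸ Z → ℂ) a))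
    simp only [lift_mk Z hc hZ] at h2
    show _ = _ * ∑ h : H, f (prest p h) * conj ((φ : H ⧸ Z → ℂ) (QuotientGroup.mk' Z h))
    rw [h2, ← Subgroup.index_mul_card Z, ← Subgroup.index_eq_card, Nat.cast_mul]
    have hZc : (Nat.card Z : ℂ) ≠ 0 := Nat.cast_ne_zero.2 Nat.card_pos.ne'
    field_simp
  have h3 : (fun h => f (prest p h)) = ∑ ξ : IrrCharacter H, classInner f (ξ : H → ℂ) • fun h => (ξ : H → ℂ) (prest p h) := by
    funext h
    conv_lhs => rw [classFun_expand hf]
    simp [Finset.sum_apply]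
  rw [h1, h3, classInner_sum_left]
  refine IsIntegral.sum _ fun ξ _ => ?_
  rw [classInner_smul_left]
  obtain ⟨n, hn⟩ := genChar_inner_int (genChar_prest (p := p) (AddSubgroup.subset_closure (isCharacter_of_irr ξ.2))) ψ
  rw [hn]
  exact (hint ξ).mul (isIntegral_algebraMap (R := ℤ) (x := n))

end CfsgLib.HeightZeroSec
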