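import Cfsg.Agent.Blocks.HeightZeroSec.Quotient
import Mathlib.GroupTheory.PGroup

/-!
# The principal block has at most `p²` height zero characters if some centralizer has Sylow order at most `p²`
-/

set_option autoImplicit false
set_option linter.style.haveILetI false
set_option linter.unusedSectionVars false

namespace CfsgLib.HeightZeroSec

open Cfsg CfsgLib CfsgLib.Blocks CfsgLib.ZStar

universe u

variable {p : ℕ} [hp : Fact p.Prime] {M : Ideal AlgInt}

/-- An automizer fixing a central involution of a Sylow subgroup of order four is trivial. -/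
theorem normalizer_le_of_four {H : Type u} [Group H] [Finite H] (h2 : p = 2) (S : Sylow p H) (hS : Nat.card S = p ^ 2)
    {z : H} (hz : z ∈ Subgroup.center H) (hzS : z ∈ (S : Subgroup H)) (hzo : orderOf z = p) :
    Subgroup.normalizer ((S : Subgroup H) : Set H) ≤ Subgroup.centralizer ((S : Subgroup H) : Set H) := by
  classical
  have hab : ∀ a ∈ (S : Subgroup H), ∀ b ∈ (S : Subgroup H), a * b = b * a := fun a ha b hb =>
    congrArg Subtype.val ((IsPGroup.isMulCommutative_of_card_eq_prime_sq hS).is_comm.comm (⟨a, ha⟩ : (S : Subgroup H)) ⟨b, hb⟩)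
  intro n hn
  obtain ⟨h1, h2', h3, h4, h5, h6⟩ := part_spec (p := p) n
  have hu : ppart p n ∈ (S : Subgroup H) := by
    obtain ⟨k, hk⟩ := h3
    have hh : IsPGroup p (Subgroup.zpowers (ppart p n) ⊔ (S : Subgroup H) : Subgroup H) :=
      IsPGroup.to_sup_of_normal_right' (IsPGroup.of_card (n := k) (by rw [Nat.card_zpowers, hk])) S.2
        (Subgroup.zpowers_le.2 ((Subgroup.zpowers_le.2 hn) h5))
    exact S.3 hh le_sup_right ▸ Subgroup.mem_sup_left (Subgroup.mem_zpowers _)
  have hr : prest p n ∈ Subgroup.normalizer ((S : Subgroup H) : Set H) := (Subgroup.zpowers_le.2 hn) h6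
  set r := prest p n with hrdef
  have hzr : Commute r z := Subgroup.mem_center_iff.1 hz r
  have hz1 : z ≠ 1 := fun h => by
    rw [h, orderOf_one] at hzo
    exact hp.out.one_lt.ne' hzo.symm
  have hrc : ∀ a ∈ (S : Subgroup H), r * a * r⁻¹ = a := by
    intro a ha
    by_cases haz : a ∈ Subgroup.zpowers z
    · obtain ⟨i, rfl⟩ := Subgroup.mem_zpowers_iff.1 haz
      rw [(hzr.zpow_right i).eq, mul_inv_cancel_right]
    have hb : r * a * r⁻¹ ∈ (S : Subgroup H) := (Subgroup.mem_normalizer_iff.1 hr a).1 ha
    have hcases : r * a * r⁻¹ = a ∨ r * a * r⁻¹ = a * z := by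
      by_contra hcon
      rw [not_or] at hcon
      have hnb : r * a * r⁻¹ ≠ 1 := fun h => haz (by rw [conj_eq_one_iff.1 h]; exact one_mem _)
      have hnz : r * a * r⁻¹ ≠ z := fun h => haz (by
        have e : a = z := by
          rw [← mul_left_cancel_iff (a := r), ← hzr.symm.eq, ← h, inv_mul_cancel_right]
        rw [e]; exact Subgroup.mem_zpowers z)
      haveI : Fintype H := Fintype.ofFinite H
      have hsub : ({1, z, a, a * z, r * a * r⁻¹} : Finset H) ⊆ Finset.univ.filter (fun h : H => h ∈ (S : Subgroup H)) := by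
        intro h hh
        simp only [Finset.mem_insert, Finset.mem_singleton] at hh
        refine Finset.mem_filter.2 ⟨Finset.mem_univ _, ?_⟩
        rcases hh with rfl | rfl | rfl | rfl | rfl
        exacts [one_mem _, hzS, ha, mul_mem ha hzS, hb]
      have ha1 : a ≠ 1 := fun h => haz (h ▸ one_mem _)
      have haz' : a ≠ z := fun h => haz (h ▸ Subgroup.mem_zpowers z)
      have haz1 : a * z ≠ 1 := fun h => haz (by rw [eq_inv_of_mul_eq_one_left h]; exact inv_mem (Subgroup.mem_zpowers z))
      have haz2 : a * z ≠ z := fun h => ha1 (mul_eq_right.1 h)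
      have haz3 : a * z ≠ a := fun h => hz1 (mul_eq_left.1 h)
      have hcard : ({1, z, a, a * z, r * a * r⁻¹} : Finset H).card = 5 := by
        rw [Finset.card_insert_of_notMem, Finset.card_insert_of_notMem, Finset.card_insert_of_notMem,
          Finset.card_insert_of_notMem, Finset.card_singleton] <;>
          simp only [Finset.mem_insert, Finset.mem_singleton, not_or] <;>
          first
            | exact ⟨hz1.symm, ha1.symm, haz1.symm, hnb.symm⟩
            | exact ⟨haz'.symm, haz2.symm, hnz.symm⟩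
            | exact ⟨haz3.symm, Ne.symm hcon.1⟩
            | exact Ne.symm hcon.2
      have hle := Finset.card_le_card hsub
      rw [hcard, ← Fintype.card_subtype, ← Nat.card_eq_fintype_card] at hle
      have : Nat.card {h : H // h ∈ (S : Subgroup H)} = p ^ 2 := hS
      rw [this, h2] at hle
      norm_num at hle
    rcases hcases with h | h
    · exact h
    exfalso
    have hit : ∀ k : ℕ, r ^ k * a * (r ^ k)⁻¹ = a * z ^ k := by
      intro k
      induction k with
      | zero => simp
      | succ k ih =>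
        calc r ^ (k + 1) * a * (r ^ (k + 1))⁻¹ = r * (r ^ k * a * (r ^ k)⁻¹) * r⁻¹ := by
              rw [pow_succ']; group
          _ = r * (a * z ^ k) * r⁻¹ := by rw [ih]
          _ = r * a * r⁻¹ * (r * z ^ k * r⁻¹) := by group
          _ = a * z ^ (k + 1) := by rw [h, (hzr.pow_right k).eq, mul_inv_cancel_right, mul_assoc, ← pow_succ']
    have h0 := hit (orderOf r)
    rw [pow_orderOf_eq_one, inv_one, one_mul, mul_one] at h0
    have hd : orderOf z ∣ orderOf r := orderOf_dvd_of_pow_eq_one (mul_eq_left.1 h0.symm)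
    exact h4 (hzo ▸ hd)
  refine Subgroup.mem_centralizer_iff.2 fun a ha => ?_
  have e : r * a = a * r := mul_inv_eq_iff_eq_mul.1 (hrc a ha)
  rw [← h1, ← mul_assoc, hab a ha _ hu, mul_assoc, ← e, ← mul_assoc]

variable {G : Type u} [Group G] [Fintype G]

/-- The count for a nontrivial `p`-element. -/
theorem bound_of_pelt (hM : IsPModular p M) {x : G} (hx : ∃ k : ℕ, orderOf x = p ^ k)
    (hf : (Nat.card (Subgroup.centralizer ({x} : Set G))).factorization p ≤ 2)
    (hne : x ≠ 1 ∨ ¬ p ∣ Nat.card G) :
    Nat.card {χ : IrrCharacter G // χ ∈ principalBlock M G ∧ ¬ p ∣ charDegree (χ : G → ℂ)} ≤ p ^ 2 := by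
  classical
  obtain ⟨S⟩ : Nonempty (Sylow p (Subgroup.centralizer ({x} : Set G))) := inferInstance
  have hcard := S.card_eq_multiplicity
  by_cases hN : Subgroup.normalizer ((S : Subgroup (Subgroup.centralizer ({x} : Set G))) : Set (Subgroup.centralizer ({x} : Set G))) ≤
      Subgroup.centralizer ((S : Subgroup (Subgroup.centralizer ({x} : Set G))) : Set (Subgroup.centralizer ({x} : Set G)))
  · obtain ⟨K, hK, hidx⟩ := exists_regular_subgroup S hN
    exact bound_of_complement hM hx K hK (by rw [hidx, hcard]; exact Nat.pow_le_pow_right hp.out.pos hf)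
  have hzc := mem_center_cen x
  set z : Subgroup.centralizer ({x} : Set G) := ⟨x, Subgroup.mem_centralizer_singleton_iff.2 rfl⟩
  obtain ⟨k, hk⟩ := hx
  have hzo : orderOf z = p ^ k := by rw [← hk]; exact Subgroup.orderOf_mk x _
  have hzS : z ∈ (S : Subgroup (Subgroup.centralizer ({x} : Set G))) :=
    pelt_mem S (Subgroup.mem_centralizer_iff.2 fun v _ => Subgroup.mem_center_iff.1 hzc v) ⟨k, hzo⟩
  have hd : orderOf z ∣ Nat.card S := by
    have h := orderOf_dvd_natCard (⟨z, hzS⟩ : (S : Subgroup (Subgroup.centralizer ({x} : Set G))))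
    rwa [Subgroup.orderOf_mk] at h
  have hlt : orderOf z ≠ Nat.card S := by
    intro h
    refine hN fun n _ => Subgroup.mem_centralizer_iff.2 fun v hv => ?_
    have hS : Subgroup.zpowers z = (S : Subgroup (Subgroup.centralizer ({x} : Set G))) :=
      Subgroup.eq_of_le_of_card_ge (Subgroup.zpowers_le.2 hzS) (by rw [Nat.card_zpowers, h])
    obtain ⟨i, rfl⟩ := Subgroup.mem_zpowers_iff.1 (hS.symm ▸ hv)
    exact ((show Commute n z from Subgroup.mem_center_iff.1 hzc n).zpow_right i).symm.eq
  rw [hzo, hcard] at hd hlt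
  have hkl : k ≤ (Nat.card (Subgroup.centralizer ({x} : Set G))).factorization p :=
    (Nat.pow_dvd_pow_iff_le_right hp.out.one_lt).1 hd
  have hk1 : 1 ≤ k := by
    rcases Nat.eq_zero_or_pos k with h0 | h0
    · rcases hne with h | h
      · exact absurd (orderOf_eq_one_iff.1 (by rw [hk, h0, pow_zero])) h
      · refine absurd ?_ hlt
        rw [Nat.factorization_eq_zero_of_not_dvd fun h' => h (h'.trans (Subgroup.card_subgroup_dvd_card _)), h0]
    · exact h0
  have hk2 : k ≠ (Nat.card (Subgroup.centralizer ({x} : Set G))).factorization p := fun h => hlt (by rw [h])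
  have hf2 : (Nat.card (Subgroup.centralizer ({x} : Set G))).factorization p = 2 := by omega
  have hk' : k = 1 := by omega
  subst hk'
  rw [pow_one] at hk hzo
  refine bound_of_quotient hM (fun h2 => hN ?_) hk hf2
  exact normalizer_le_of_four h2 S (by rw [hcard, hf2]) hzc hzS hzo

/-- The count for an arbitrary `p`-element. -/
theorem bound_main (hM : IsPModular p M)
    (hx : ∃ x : G, (∃ k : ℕ, orderOf x = p ^ k) ∧
      (Nat.card (Subgroup.centralizer ({x} : Set G))).factorization p ≤ 2) :
    Nat.card {χ : IrrCharacter G // χ ∈ principalBlock M G ∧ ¬ p ∣ charDegree (χ : G → ℂ)} ≤ p ^ 2 := by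
  obtain ⟨x, hxk, hf⟩ := hx
  by_cases h : x ≠ 1 ∨ ¬ p ∣ Nat.card G
  · exact bound_of_pelt hM hxk hf h
  rw [not_or, not_not, not_not] at h
  obtain ⟨rfl, hdvd⟩ := h
  obtain ⟨y, hy⟩ := exists_prime_orderOf_dvd_card' p hdvd
  have h1 : Subgroup.centralizer ({(1 : G)} : Set G) = ⊤ := by
    ext g; simp [Subgroup.mem_centralizer_singleton_iff]
  rw [h1, Subgroup.card_top] at hf
  refine bound_of_pelt hM ⟨1, by rw [hy, pow_one]⟩ (le_trans ?_ hf) (Or.inl fun hy1 => by
    rw [hy1, orderOf_one] at hy; exact hp.out.one_lt.ne hy)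
  exact (Nat.factorization_le_iff_dvd Nat.card_pos.ne' Nat.card_pos.ne').2 (Subgroup.card_subgroup_dvd_card _) p

end CfsgLib.HeightZeroSec
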