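import Cfsg.Agent.Blocks.HeightZeroSec.Basic
import Cfsg.Agent.Blocks.RegularRank

/-!
# The quadratic form of the regular Gram matrix of a principal block with Sylow subgroup of prime order

For a class function the regular coordinates on the block are expressed by the ordinary ones, and their squares
are bounded below by the number of nonzero shifted coordinates.
-/

set_option autoImplicit false
set_option linter.style.haveILetI false
set_option linter.unusedSectionVars false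

namespace CfsgLib.HeightZeroSec

open Cfsg CfsgLib CfsgLib.Blocks CfsgLib.CharBasics
open scoped ComplexConjugate

universe u

variable {A : Type u} [Group A] [Fintype A]

/-- The mean of a function over the singular elements, relative to the whole group. -/
noncomputable def singMean (p : ℕ) (g : A → ℂ) : ℂ :=
  (Nat.card A : ℂ)⁻¹ * ∑ a, if p ∣ orderOf a then g a else 0

/-- The shape of a principal block with Sylow subgroups of order `p`. -/
structure Shape (p : ℕ) (M : Ideal AlgInt) (X Y : Finset (IrrCharacter A)) (εX : IrrCharacter A → ℤ) (ε : ℤ)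
    (m : ℕ) : Prop where
  mem : ∀ φ, φ ∈ principalBlock M A ↔ φ ∈ X ∨ φ ∈ Y
  disj : Disjoint X Y
  cardY : Y.card = m
  mulm : X.card * m + 1 = p
  signX : ∀ χ ∈ X, εX χ = 1 ∨ εX χ = -1
  sign : ε = 1 ∨ ε = -1
  sing : ∀ χ ∈ X, ∀ a, p ∣ orderOf a → (χ : A → ℂ) a = (εX χ : ℂ)
  reg : ∀ θ ∈ Y, ∀ a, ¬ p ∣ orderOf a → (ε : ℂ) * (θ : A → ℂ) a = ∑ χ ∈ X, (εX χ : ℂ) * (χ : A → ℂ) a
  count : Nat.card {a : A // p ∣ orderOf a} * p = Nat.card A * m

theorem classInner_reg_comm (p : ℕ) (f g : A → ℂ) :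
    classInner (pRegularPart p f) g = classInner f (pRegularPart p g) := by
  rw [classInner_eq, classInner_eq]
  congr 1
  refine Finset.sum_congr rfl fun a _ => ?_
  simp only [pRegularPart_eq]
  split_ifs <;> simp

theorem singMean_sum {ι : Type*} (p : ℕ) (s : Finset ι) (c : ι → ℂ) (f : ι → A → ℂ) :
    singMean p (∑ i ∈ s, c i • f i) = ∑ i ∈ s, c i * singMean p (f i) := by
  simp only [singMean, Finset.mul_sum]
  rw [Finset.sum_comm (s := s)]
  refine Finset.sum_congr rfl fun a _ => ?_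
  split_ifs
  · simp only [Finset.sum_apply, Pi.smul_apply, smul_eq_mul, Finset.mul_sum]
    exact Finset.sum_congr rfl fun i _ => by ring
  · simp

/-- The shifted coordinate. -/
noncomputable def coordB (Y : Finset (IrrCharacter A)) (εX : IrrCharacter A → ℤ) (ε : ℤ) (g : A → ℂ)
    (χ : IrrCharacter A) : ℂ :=
  classInner g (χ : A → ℂ) + (ε : ℂ) * (εX χ : ℂ) * ∑ θ ∈ Y, classInner g (θ : A → ℂ)

variable {p : ℕ} [hp : Fact p.Prime] {M : Ideal AlgInt} {X Y : Finset (IrrCharacter A)}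
  {εX : IrrCharacter A → ℤ} {ε : ℤ} {m : ℕ}

namespace Shape

theorem sq (S : Shape p M X Y εX ε m) {χ : IrrCharacter A} (hχ : χ ∈ X) : (εX χ : ℂ) * (εX χ : ℂ) = 1 := by
  rcases S.signX χ hχ with h | h <;> simp [h]

theorem sq' (S : Shape p M X Y εX ε m) : (ε : ℂ) * (ε : ℂ) = 1 := by rcases S.sign with h | h <;> simp [h]

theorem classInner_reg_X (S : Shape p M X Y εX ε m) (g : A → ℂ) {χ : IrrCharacter A} (hχ : χ ∈ X) :
    classInner (pRegularPart p g) (χ : A → ℂ) = classInner g (χ : A → ℂ) - (εX χ : ℂ) * singMean p g := by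
  rw [classInner_eq, classInner_eq, singMean, mul_left_comm ((εX χ : ℂ)), ← mul_sub]
  congr 1
  rw [Finset.mul_sum, ← Finset.sum_sub_distrib]
  refine Finset.sum_congr rfl fun a _ => ?_
  simp only [pRegularPart_eq]
  split_ifs with ha
  · rw [S.sing χ hχ a ha, map_intCast]; ring
  · ring

theorem classInner_reg_Y (S : Shape p M X Y εX ε m) (g : A → ℂ) {θ : IrrCharacter A} (hθ : θ ∈ Y) :
    classInner (pRegularPart p g) (θ : A → ℂ) =
      (ε : ℂ) * ∑ χ ∈ X, (εX χ : ℂ) * classInner (pRegularPart p g) (χ : A → ℂ) := by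
  simp only [classInner_eq, Finset.mul_sum]
  rw [Finset.sum_comm (s := X)]
  refine Finset.sum_congr rfl fun a _ => ?_
  simp only [pRegularPart_eq]
  split_ifs with ha
  · simp
  · have h : (θ : A → ℂ) a = (ε : ℂ) * ∑ χ ∈ X, (εX χ : ℂ) * (χ : A → ℂ) a := by
      rw [← S.reg θ hθ a ha, ← mul_assoc, S.sq', one_mul]
    rw [h, map_mul, map_intCast, map_sum, Finset.mul_sum, Finset.mul_sum, Finset.mul_sum]
    exact Finset.sum_congr rfl fun χ _ => by rw [map_mul, map_intCast]; ring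

theorem nonempty (S : Shape p M X Y εX ε m) : X.Nonempty := by
  rcases X.eq_empty_or_nonempty with h | h
  · have := S.mulm
    rw [h, Finset.card_empty] at this
    have := hp.out.one_lt
    omega
  · exact h

theorem singMean_X (S : Shape p M X Y εX ε m) {χ : IrrCharacter A} (hχ : χ ∈ X) :
    singMean p (χ : A → ℂ) = (εX χ : ℂ) * ((m : ℂ) / p) := by
  classical
  have hA : (Nat.card A : ℂ) ≠ 0 := Nat.cast_ne_zero.2 Nat.card_pos.ne'
  have hpc : (p : ℂ) ≠ 0 := Nat.cast_ne_zero.2 hp.out.ne_zero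
  rw [singMean, Finset.sum_ite, Finset.sum_const_zero, add_zero,
    Finset.sum_congr rfl fun a ha => S.sing χ hχ a (Finset.mem_filter.1 ha).2, Finset.sum_const, nsmul_eq_mul]
  have h : ((Finset.univ.filter fun a : A => p ∣ orderOf a).card : ℂ) * p = (Nat.card A : ℂ) * m := by
    have h0 := S.count
    rw [Nat.card_eq_fintype_card (α := {a : A // p ∣ orderOf a}), Fintype.card_subtype] at h0
    exact_mod_cast h0
  field_simp
  linear_combination (εX χ : ℂ) * h

theorem singMean_Y (S : Shape p M X Y εX ε m) {θ : IrrCharacter A} (hθ : θ ∈ Y) :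
    singMean p (θ : A → ℂ) = -(ε : ℂ) / p := by
  classical
  obtain ⟨χ, hχ⟩ := S.nonempty
  have h1 := S.classInner_reg_X (θ : A → ℂ) hχ
  rw [classInner_ne θ.2 χ.2 (fun e => Finset.disjoint_left.1 S.disj hχ ((Subtype.ext e : θ = χ) ▸ hθ))] at h1
  have h2 : classInner (pRegularPart p (θ : A → ℂ)) (χ : A → ℂ) =
      conj (classInner (pRegularPart p (χ : A → ℂ)) (θ : A → ℂ)) := by
    rw [classInner_reg_comm, classInner_comm]
  have h3 : ∀ ψ ∈ X, (εX ψ : ℂ) * classInner (pRegularPart p (χ : A → ℂ)) (ψ : A → ℂ) =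
      (if ψ = χ then (εX ψ : ℂ) else 0) - (εX χ : ℂ) * ((m : ℂ) / p) := by
    intro ψ hψ
    rw [S.classInner_reg_X _ hψ, S.singMean_X hχ, mul_sub, ← mul_assoc, S.sq hψ, one_mul]
    by_cases h : ψ = χ
    · rw [if_pos h, h, classInner_self χ.2, mul_one]
    · rw [if_neg h, classInner_ne χ.2 ψ.2 (fun e => h (Subtype.ext e).symm), mul_zero]
  rw [h2, S.classInner_reg_Y _ hθ, Finset.sum_congr rfl h3, Finset.sum_sub_distrib, Finset.sum_ite_eq', if_pos hχ,
    Finset.sum_const, nsmul_eq_mul] at h1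
  have hpc : (p : ℂ) ≠ 0 := Nat.cast_ne_zero.2 hp.out.ne_zero
  have hm : (X.card : ℂ) * m + 1 = p := by exact_mod_cast S.mulm
  simp only [map_mul, map_sub, map_intCast, map_natCast, map_div₀] at h1
  field_simp at h1 ⊢
  linear_combination ((εX χ : ℂ)) * h1 + (ε : ℂ) * hm + (-(ε : ℂ) * (p - X.card * m) - p * singMean p (θ : A → ℂ)) * S.sq hχ

theorem singMean_other (hM : IsPModular p M) (S : Shape p M X Y εX ε m) {φ : IrrCharacter A} (hX : φ ∉ X)
    (hY : φ ∉ Y) : singMean p (φ : A → ℂ) = 0 := by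
  classical
  have hφ : φ ∉ principalBlock M A := fun h => ((S.mem φ).1 h).elim hX hY
  have h0 : ∑ a, (φ : A → ℂ) a = 0 := sum_irr_eq_zero φ.2 fun e => hφ (by
    rw [show φ = oneChar from Subtype.ext e]; exact oneChar_mem_principal hM)
  have h1 := ZStar.sum_regular_eq_zero hM hφ
  rw [singMean, show (∑ a, if p ∣ orderOf a then (φ : A → ℂ) a else 0) =
    ∑ a, (φ : A → ℂ) a - ∑ a, (if p ∣ orderOf a then 0 else (φ : A → ℂ) a) by
      rw [← Finset.sum_sub_distrib]
      exact Finset.sum_congr rfl fun a _ => by split_ifs <;> simp, h0, h1, sub_zero, mul_zero]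

theorem singMean_eq (hM : IsPModular p M) (S : Shape p M X Y εX ε m) {g : A → ℂ} (hg : IsClassFunction A g) :
    singMean p g = (m : ℂ) / p * ∑ χ ∈ X, (εX χ : ℂ) * classInner g (χ : A → ℂ) -
      (ε : ℂ) / p * ∑ θ ∈ Y, classInner g (θ : A → ℂ) := by
  classical
  haveI : Fintype (IrrCharacter A) := @Fintype.ofFinite _ finite_irrCharacter
  conv_lhs => rw [classFun_expand hg, singMean_sum]
  rw [← Finset.sum_subset (Finset.subset_univ (X ∪ Y)) (fun φ _ hφ => by
    rw [Finset.mem_union, not_or] at hφ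
    rw [S.singMean_other hM hφ.1 hφ.2, mul_zero]), Finset.sum_union S.disj,
    Finset.sum_congr (s₁ := X) rfl (g := fun χ : IrrCharacter A => classInner g (χ : A → ℂ) * ((εX χ : ℂ) * ((m : ℂ) / p)))
      (fun χ hχ => by rw [S.singMean_X hχ]),
    Finset.sum_congr (s₁ := Y) rfl (g := fun θ : IrrCharacter A => classInner g (θ : A → ℂ) * (-(ε : ℂ) / p)) (fun θ hθ => by rw [S.singMean_Y hθ])]
  rw [sub_eq_add_neg, ← neg_mul, Finset.mul_sum, Finset.mul_sum]
  exact congrArg₂ _ (Finset.sum_congr rfl fun χ _ => by ring) (Finset.sum_congr rfl fun θ _ => by ring)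

theorem coordC_X (hM : IsPModular p M) (S : Shape p M X Y εX ε m) {g : A → ℂ} (hg : IsClassFunction A g)
    {χ : IrrCharacter A} (hχ : χ ∈ X) :
    classInner (pRegularPart p g) (χ : A → ℂ) =
      coordB Y εX ε g χ - (εX χ : ℂ) * ((m : ℂ) / p) * ∑ ψ ∈ X, (εX ψ : ℂ) * coordB Y εX ε g ψ := by
  have hB : ∑ ψ ∈ X, (εX ψ : ℂ) * coordB Y εX ε g ψ = ∑ ψ ∈ X, (εX ψ : ℂ) * classInner g (ψ : A → ℂ) +
      (X.card : ℂ) * ((ε : ℂ) * ∑ θ ∈ Y, classInner g (θ : A → ℂ)) := by
    rw [← nsmul_eq_mul, ← Finset.sum_const, ← Finset.sum_add_distrib]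
    refine Finset.sum_congr rfl fun ψ hψ => ?_
    rw [coordB]
    linear_combination ((ε : ℂ) * ∑ θ ∈ Y, classInner g (θ : A → ℂ)) * S.sq hψ
  have hpc : (p : ℂ) ≠ 0 := Nat.cast_ne_zero.2 hp.out.ne_zero
  have hm : (X.card : ℂ) * m + 1 = p := by exact_mod_cast S.mulm
  rw [S.classInner_reg_X g hχ, S.singMean_eq hM hg, hB, coordB]
  field_simp
  linear_combination (εX χ : ℂ) * (ε : ℂ) * (∑ θ ∈ Y, classInner g (θ : A → ℂ)) * hm

theorem coordC_Y (hM : IsPModular p M) (S : Shape p M X Y εX ε m) {g : A → ℂ} (hg : IsClassFunction A g)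
    {θ : IrrCharacter A} (hθ : θ ∈ Y) :
    classInner (pRegularPart p g) (θ : A → ℂ) =
      (ε : ℂ) / p * ∑ ψ ∈ X, (εX ψ : ℂ) * coordB Y εX ε g ψ := by
  have hpc : (p : ℂ) ≠ 0 := Nat.cast_ne_zero.2 hp.out.ne_zero
  have hm : (X.card : ℂ) * m + 1 = p := by exact_mod_cast S.mulm
  set B := ∑ ψ ∈ X, (εX ψ : ℂ) * coordB Y εX ε g ψ with hB
  rw [S.classInner_reg_Y g hθ, Finset.sum_congr rfl (g := fun ψ => (εX ψ : ℂ) * coordB Y εX ε g ψ - (m : ℂ) / p * B)
    (fun ψ hψ => by rw [S.coordC_X hM hg hψ, ← hB]; linear_combination (-((m : ℂ) / p * B)) * S.sq hψ),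
    Finset.sum_sub_distrib, ← hB, Finset.sum_const, nsmul_eq_mul]
  field_simp
  linear_combination -(ε : ℂ) * B * hm

/-- The lower bound for the regular coordinates. -/
theorem quad (hM : IsPModular p M) (S : Shape p M X Y εX ε m) {g : A → ℂ} (hg : IsClassFunction A g) :
    ((p : ℝ) - m * (X.filter fun χ => coordB Y εX ε g χ ≠ 0).card) * ∑ χ ∈ X, ‖coordB Y εX ε g χ‖ ^ 2 ≤
      (p : ℝ) * ∑ φ ∈ X ∪ Y, ‖classInner (pRegularPart p g) (φ : A → ℂ)‖ ^ 2 := by
  classical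
  set b := coordB Y εX ε g with hb
  set B := ∑ ψ ∈ X, (εX ψ : ℂ) * b ψ with hB
  have hpc : (p : ℂ) ≠ 0 := Nat.cast_ne_zero.2 hp.out.ne_zero
  have hm : (X.card : ℂ) * m + 1 = p := by exact_mod_cast S.mulm
  have hkey : (p : ℝ) * ∑ φ ∈ X ∪ Y, ‖classInner (pRegularPart p g) (φ : A → ℂ)‖ ^ 2 =
      p * ∑ χ ∈ X, ‖b χ‖ ^ 2 - m * ‖B‖ ^ 2 := by
    apply Complex.ofReal_injective
    push_cast
    simp only [← Complex.mul_conj']
    rw [Finset.sum_union S.disj, Finset.sum_congr rfl (g := fun χ => (b χ - (εX χ : ℂ) * ((m : ℂ) / p) * B) *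
        conj (b χ - (εX χ : ℂ) * ((m : ℂ) / p) * B)) (fun χ hχ => by rw [S.coordC_X hM hg hχ]),
      Finset.sum_congr (s₁ := Y) rfl (g := fun _ : IrrCharacter A => B * conj B / (p : ℂ) ^ 2) (fun θ hθ => ?_),
      Finset.sum_const, S.cardY, nsmul_eq_mul]
    swap
    · rw [S.coordC_Y hM hg hθ, ← hb, ← hB, map_mul, map_div₀, map_intCast, map_natCast]
      linear_combination (B * conj B / (p : ℂ) ^ 2) * S.sq'
    have hterm : ∀ χ ∈ X, (b χ - (εX χ : ℂ) * ((m : ℂ) / p) * B) * conj (b χ - (εX χ : ℂ) * ((m : ℂ) / p) * B) =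
        b χ * conj (b χ) - (m : ℂ) / p * conj B * ((εX χ : ℂ) * b χ) - (m : ℂ) / p * B * conj ((εX χ : ℂ) * b χ) +
          (m : ℂ) / p * ((m : ℂ) / p) * (B * conj B) := by
      intro χ hχ
      simp only [map_sub, map_mul, map_div₀, map_intCast, map_natCast]
      linear_combination (m : ℂ) / p * ((m : ℂ) / p) * (B * conj B) * S.sq hχ
    rw [Finset.sum_congr rfl hterm, Finset.sum_add_distrib, Finset.sum_sub_distrib, Finset.sum_sub_distrib,
      ← Finset.mul_sum, ← Finset.mul_sum, ← map_sum, ← hB, Finset.sum_const, nsmul_eq_mul]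
    field_simp
    linear_combination (m : ℂ) * (B * conj B) * hm
  rw [hkey]
  have hcs : ‖B‖ ^ 2 ≤ ((X.filter fun χ => b χ ≠ 0).card : ℝ) * ∑ χ ∈ X, ‖b χ‖ ^ 2 := by
    have h1 : B = ∑ χ ∈ X.filter (fun χ => b χ ≠ 0), (εX χ : ℂ) * b χ := by
      rw [Finset.sum_filter_of_ne]
      intro χ _ h h0
      exact h (by rw [h0, mul_zero])
    have h2 : ‖B‖ ≤ ∑ χ ∈ X.filter (fun χ => b χ ≠ 0), ‖b χ‖ := by
      rw [h1]
      refine (norm_sum_le _ _).trans (Finset.sum_le_sum fun χ hχ => le_of_eq ?_)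
      rcases S.signX χ (Finset.mem_filter.1 hχ).1 with h | h <;> simp [h]
    calc ‖B‖ ^ 2 ≤ (∑ χ ∈ X.filter (fun χ => b χ ≠ 0), ‖b χ‖) ^ 2 := pow_le_pow_left₀ (norm_nonneg _) h2 2
      _ ≤ ((X.filter fun χ => b χ ≠ 0).card : ℝ) * ∑ χ ∈ X.filter (fun χ => b χ ≠ 0), ‖b χ‖ ^ 2 :=
        sq_sum_le_card_mul_sum_sq
      _ ≤ _ := mul_le_mul_of_nonneg_left (Finset.sum_le_sum_of_subset_of_nonneg (Finset.filter_subset _ _)
        fun χ _ _ => by positivity) (Nat.cast_nonneg _)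
  nlinarith [mul_le_mul_of_nonneg_left hcs (Nat.cast_nonneg (α := ℝ) m)]

end Shape

end CfsgLib.HeightZeroSec
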