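import Cfsg.Agent.Blocks.HeightZeroSec.Lift
import Cfsg.Agent.Blocks.HeightZeroSec.Group
import Cfsg.Agent.Blocks.Rank
import Cfsg.Agent.S4441

/-!
# Height zero characters of the principal block: a centralizer whose central quotient has Sylow order `p`
-/

set_option autoImplicit false
set_option linter.style.haveILetI false
set_option linter.unusedSectionVars false

namespace CfsgLib.HeightZeroSec

open Cfsg CfsgLib CfsgLib.Blocks CfsgLib.CharBasics CfsgLib.ZStar
open scoped ComplexConjugate

universe u

variable {p : ℕ} [hp : Fact p.Prime] {M : Ideal AlgInt}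

section Shape

variable {A : Type u} [Group A] [Fintype A] {X Y : Finset (IrrCharacter A)} {εX : IrrCharacter A → ℤ} {ε : ℤ} {m : ℕ}

theorem pw_injective {j : ℕ} (hj : j.Coprime (Nat.card A)) : Function.Injective (pw (G := A) j) := fun a b h => by
  unfold pw at h
  rw [dif_pos hj, dif_pos hj] at h
  exact powChar_injective hj h

/-- The power twist of a shape. -/
theorem Shape.pow (S : Shape p M X Y εX ε m) {j : ℕ} (hj : j.Coprime (Nat.card A)) [DecidableEq (IrrCharacter A)] :
    Shape p M (X.image (pw j)) (Y.image (pw j)) (Function.extend (pw j) εX 0) ε m where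
  mem := by
    classical
    haveI : Fintype (IrrCharacter A) := @Fintype.ofFinite _ finite_irrCharacter
    set P0 := Finset.univ.filter (fun φ : IrrCharacter A => φ ∈ principalBlock M A) with hP0
    have h0 : P0.image (pw j) = P0 := by
      refine Finset.eq_of_subset_of_card_le (fun φ hφ => ?_) (le_of_eq (Finset.card_image_of_injective _ (pw_injective hj)).symm)
      obtain ⟨ψ, hψ, rfl⟩ := Finset.mem_image.1 hφ
      refine Finset.mem_filter.2 ⟨Finset.mem_univ _, ?_⟩
      rw [pw, dif_pos hj]
      exact powChar_mem_principal hj (Finset.mem_filter.1 hψ).2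
    have hXY : X ∪ Y = P0 := by
      ext φ; simp [hP0, S.mem φ]
    intro φ
    rw [← Finset.mem_union, ← Finset.image_union, hXY, h0]
    simp [hP0]
  disj := Finset.disjoint_image (pw_injective hj) |>.2 S.disj
  cardY := by rw [Finset.card_image_of_injective _ (pw_injective hj), S.cardY]
  mulm := by rw [Finset.card_image_of_injective _ (pw_injective hj), S.mulm]
  signX := by
    simp only [Finset.forall_mem_image, (pw_injective hj).extend_apply]
    exact S.signX
  sign := S.sign
  sing := by
    simp only [Finset.forall_mem_image, (pw_injective hj).extend_apply]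
    intro χ hχ a ha
    rw [pw_apply hj]
    exact S.sing χ hχ _ (by rwa [(Nat.Coprime.coprime_dvd_left (orderOf_dvd_natCard a) hj.symm).orderOf_pow])
  reg := by
    intro φ hφ a ha
    obtain ⟨θ, hθ, rfl⟩ := Finset.mem_image.1 hφ
    rw [Finset.sum_image fun a _ b _ h => pw_injective hj h, pw_apply hj,
      S.reg θ hθ _ (by rwa [(Nat.Coprime.coprime_dvd_left (orderOf_dvd_natCard a) hj.symm).orderOf_pow])]
    exact Finset.sum_congr rfl fun χ _ => by rw [(pw_injective hj).extend_apply, pw_apply hj]
  count := S.count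

/-- The shape given by the theorem on principal blocks with Sylow subgroups of prime order. -/
theorem exists_shape (hM : IsPModular p M) (hodd : p ≠ 2) (P : Sylow p A) (hP : Nat.card P = p) :
    ∃ (X Y : Finset (IrrCharacter A)) (εX : IrrCharacter A → ℤ) (ε : ℤ) (m : ℕ), Shape p M X Y εX ε m := by
  classical
  haveI : Fintype (IrrCharacter A) := @Fintype.ofFinite _ finite_irrCharacter
  obtain ⟨X, Y, hun, hdis, hX, hY, εX, ε, hXp, hε, -, -, hreg⟩ :=
    Cfsg.Agent.S4441.result p M hM hodd P hP _ rfl
  set e := (Subgroup.centralizer ((P : Subgroup A) : Set A)).relIndex (Subgroup.normalizer ((P : Subgroup A) : Set A)) with he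
  have hdvd : e ∣ p - 1 := relIndex_dvd_pred P hP
  have he0 : 0 < e := Nat.pos_of_ne_zero fun h => by
    rw [h] at hdvd
    have := hp.out.one_lt
    have := Nat.eq_zero_of_zero_dvd hdvd
    omega
  refine ⟨X.toFinset, Y.toFinset, εX, ε, (p - 1) / e,
    { mem := fun φ => by rw [hun]; simp
      disj := Set.disjoint_toFinset.2 hdis
      cardY := by rw [Set.toFinset_card, ← Nat.card_eq_fintype_card, hY]
      mulm := by
        rw [Set.toFinset_card, ← Nat.card_eq_fintype_card, hX, Nat.mul_div_cancel' hdvd]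
        exact Nat.sub_add_cancel hp.out.one_le
      signX := fun χ hχ => (hXp χ (Set.mem_toFinset.1 hχ)).1
      sign := hε
      sing := fun χ hχ a ha => ?_
      reg := fun θ hθ a ha => ?_
      count := ?_ }⟩
  · obtain ⟨c, hc⟩ := exists_conj_singular P hP ha
    have hd : p ∣ orderOf (c * a * c⁻¹) := by
      rwa [show c * a * c⁻¹ = MulAut.conj c a from rfl, MulEquiv.orderOf_eq]
    obtain ⟨h1, h2, h3⟩ := ppart_of_singular P hP hc hd
    obtain ⟨e1, e2, -, e4, -, e6⟩ := part_spec (p := p) (c * a * c⁻¹)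
    have h := (hXp χ (Set.mem_toFinset.1 hχ)).2.2 _ h1 h2 _ ((Subgroup.zpowers_le.2 hc) e6) e4
    rw [e1] at h
    rw [← h, CharBasics.isClassFunction (isCharacter_of_irr χ.2) a c]
  · rw [hreg θ (Set.mem_toFinset.1 hθ) a ha, finsum_mem_eq_toFinset_sum]
  · refine Nat.eq_of_mul_eq_mul_left he0 ?_
    calc e * (Nat.card {a : A // p ∣ orderOf a} * p) = Nat.card {a : A // p ∣ orderOf a} * (p * e) := by ring
      _ = Nat.card A * (p - 1) := card_singular P hP
      _ = e * (Nat.card A * ((p - 1) / e)) := by
          rw [mul_left_comm, Nat.mul_div_cancel' hdvd]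

/-- The regular coordinates of all functions have total square at most `rank` times `|A|`. -/
theorem sum_regular_block (hM : IsPModular p M) (S : Shape p M X Y εX ε m) :
    ∃ r : ℕ, r ≤ X.card ∧
      ∑ φ ∈ X ∪ Y, regTotal p (fun a => (φ : A → ℂ) a * conj ((φ : A → ℂ) a)) = (Nat.card A : ℂ) * r := by
  classical
  haveI : Fintype (IrrCharacter A) := @Fintype.ofFinite _ finite_irrCharacter
  refine ⟨blockRank p (principalBlock M A), ?_, ?_⟩
  · unfold blockRank
    have hle : Submodule.span ℂ ((fun χ : IrrCharacter A => pRegularPart p (χ : A → ℂ)) '' principalBlock M A) ≤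
        Submodule.span ℂ ((X.image fun χ : IrrCharacter A => pRegularPart p (χ : A → ℂ)) : Set (A → ℂ)) := by
      refine Submodule.span_le.2 ?_
      rintro _ ⟨φ, hφ, rfl⟩
      rcases (S.mem φ).1 hφ with h | h
      · exact Submodule.subset_span (Finset.mem_coe.2 (Finset.mem_image_of_mem _ h))
      · have e : pRegularPart p (φ : A → ℂ) =
            (ε : ℂ) • ∑ χ ∈ X, (εX χ : ℂ) • pRegularPart p (χ : A → ℂ) := by
          funext a
          simp only [Pi.smul_apply, Finset.sum_apply, smul_eq_mul, pRegularPart_eq]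
          split_ifs with ha
          · simp
          · rw [← S.reg φ h a ha, ← mul_assoc, S.sq', one_mul]
        show pRegularPart p (φ : A → ℂ) ∈ _
        rw [e]
        exact Submodule.smul_mem _ _ (Submodule.sum_mem _ fun χ hχ => Submodule.smul_mem _ _
          (Submodule.subset_span (Finset.mem_coe.2 (Finset.mem_image_of_mem _ hχ))))
    exact (Submodule.finrank_mono hle).trans ((finrank_span_finset_le_card _).trans Finset.card_image_le)
  · rw [← sum_blockKernel_diag hM isPBlock_principal]
    simp only [regTotal, blockKernel_eq]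
    rw [Finset.sum_comm, show X ∪ Y = Finset.univ.filter (· ∈ principalBlock M A) by ext φ; simp [S.mem φ]]
    refine Finset.sum_congr rfl fun a _ => ?_
    split_ifs
    · simp
    · rfl

end Shape

variable {G : Type u} [Group G] [Fintype G]

set_option maxHeartbeats 2000000 in
/-- The case of a central quotient with Sylow subgroups of order `p`. -/
theorem bound_of_quotient (hM : IsPModular p M) (hodd : p ≠ 2) {x : G} (hx : orderOf x = p)
    (h2 : (Nat.card (Subgroup.centralizer ({x} : Set G))).factorization p = 2) :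
    Nat.card {χ : IrrCharacter G // χ ∈ principalBlock M G ∧ ¬ p ∣ charDegree (χ : G → ℂ)} ≤ p ^ 2 := by
  classical
  haveI : Fintype (IrrCharacter G) := @Fintype.ofFinite _ finite_irrCharacter
  haveI : Fintype (Subgroup.centralizer ({x} : Set G)) := Fintype.ofFinite _
  set z : Subgroup.centralizer ({x} : Set G) := ⟨x, Subgroup.mem_centralizer_singleton_iff.2 rfl⟩ with hzdef
  have hc : Subgroup.zpowers z ≤ Subgroup.center _ := Subgroup.zpowers_le.2 (mem_center_cen x)
  haveI : (Subgroup.zpowers z).Normal := ⟨fun n hn g => by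
    rwa [Subgroup.mem_center_iff.1 (hc hn) g, mul_inv_cancel_right]⟩
  have hzo : orderOf z = p := by rw [hzdef, Subgroup.orderOf_mk, hx]
  have hcardZ : Nat.card (Subgroup.zpowers z) = p := by rw [Nat.card_zpowers, hzo]
  have hZ : IsPGroup p (Subgroup.zpowers z) := IsPGroup.of_card (n := 1) (by rw [hcardZ, pow_one])
  haveI : Fintype (Subgroup.zpowers z) := Fintype.ofFinite _
  haveI : Fintype (Subgroup.centralizer ({x} : Set G) ⧸ Subgroup.zpowers z) := Fintype.ofFinite _
  haveI : Fintype (IrrCharacter (Subgroup.centralizer ({x} : Set G) ⧸ Subgroup.zpowers z)) :=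
    @Fintype.ofFinite _ finite_irrCharacter
  have hmul : Nat.card (Subgroup.centralizer ({x} : Set G) ⧸ Subgroup.zpowers z) * p =
      Nat.card (Subgroup.centralizer ({x} : Set G)) := by
    rw [← Subgroup.index_eq_card, ← hcardZ, Subgroup.index_mul_card]
  have hxk : ∃ k : ℕ, orderOf x = p ^ k := ⟨1, by rw [hx, pow_one]⟩
  have hAG : Nat.card (Subgroup.centralizer ({x} : Set G) ⧸ Subgroup.zpowers z) ∣ Nat.card G :=
    (Dvd.intro p hmul).trans (Subgroup.card_subgroup_dvd_card _)
  set A := Subgroup.centralizer ({x} : Set G) ⧸ Subgroup.zpowers z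
  obtain ⟨P⟩ : Nonempty (Sylow p A) := inferInstance
  have hP : Nat.card P = p := by
    rw [P.card_eq_multiplicity]
    have h3 := congrArg (fun n => n.factorization p) hmul
    simp only [Nat.factorization_mul Nat.card_pos.ne' hp.out.ne_zero, h2, hp.out.factorization_self, Finsupp.add_apply] at h3
    rw [show (Nat.card A).factorization p = 1 by omega, pow_one]
  obtain ⟨X, Y, εX, ε, m, S⟩ := exists_shape hM hodd P hP
  let g : IrrCharacter G → A → ℂ := fun χ a => shiftFun x (χ : G → ℂ) (lift (Subgroup.zpowers z) p a)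
  have hgcls : ∀ χ, IsClassFunction A (g χ) := fun χ =>
    isClassFunction_lift _ hc hZ (isClassFunction_shiftFun (x := x) (CharBasics.isClassFunction (isCharacter_of_irr χ.2)))
  let P0 : Finset (IrrCharacter A) := X ∪ Y
  let q : IrrCharacter G → ℝ := fun χ => (p : ℝ) * ∑ φ ∈ P0, ‖classInner (pRegularPart p (g χ)) (φ : A → ℂ)‖ ^ 2
  have hX0 : 0 < X.card := Finset.card_pos.2 S.nonempty
  have hAC : (Nat.card A : ℂ) ≠ 0 := Nat.cast_ne_zero.2 Nat.card_pos.ne'
  have hpc : (p : ℂ) ≠ 0 := Nat.cast_ne_zero.2 hp.out.ne_zero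
  have hreg : ∀ (χ : IrrCharacter G) (φ : IrrCharacter A), classInner (pRegularPart p (g χ)) (φ : A → ℂ) =
      (Nat.card A : ℂ)⁻¹ * regTotal p (fun h : Subgroup.centralizer ({x} : Set G) =>
        shiftFun x (χ : G → ℂ) h * conj ((φ : A → ℂ) (QuotientGroup.mk' _ h))) := by
    intro χ φ
    rw [classInner_eq, ← regTotal_lift _ hc hZ]
    congr 1
    refine Finset.sum_congr rfl fun a _ => ?_
    simp only [pRegularPart_eq]
    split_ifs with ha
    · rw [zero_mul]
    · rw [mk_lift _ hc hZ, (part_of_regular (p := p) ha).2]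
  refine bound hM q (fun χ => by positivity) (R := (X.card : ℝ)) (by exact_mod_cast hX0) ?_ fun χ hχ hdeg => ?_
  · obtain ⟨r, hr, hsum⟩ := sum_regular_block hM S
    have htot : ((∑ χ, q χ : ℝ) : ℂ) = (((p : ℝ) ^ 2 * r : ℝ) : ℂ) := by
      simp only [q, P0]
      push_cast
      simp only [← Complex.mul_conj', hreg, map_mul, map_inv₀, map_natCast]
      rw [← Finset.mul_sum, Finset.sum_comm]
      have hone : ∀ φ : IrrCharacter A, ∑ χ : IrrCharacter G, (Nat.card A : ℂ)⁻¹ * regTotal p (fun h : Subgroup.centralizer ({x} : Set G) =>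
          shiftFun x (χ : G → ℂ) h * conj ((φ : A → ℂ) (QuotientGroup.mk' _ h))) *
          ((Nat.card A : ℂ)⁻¹ * conj (regTotal p (fun h : Subgroup.centralizer ({x} : Set G) =>
            shiftFun x (χ : G → ℂ) h * conj ((φ : A → ℂ) (QuotientGroup.mk' _ h))))) =
          (Nat.card A : ℂ)⁻¹ * (Nat.card A : ℂ)⁻¹ * ((Nat.card A : ℂ) * p) *
            regTotal p (fun a : A => (φ : A → ℂ) a * conj ((φ : A → ℂ) a)) := by
        intro φ
        have hw : IsClassFunction (Subgroup.centralizer ({x} : Set G))
            (fun h => conj ((φ : A → ℂ) (QuotientGroup.mk' _ h))) := fun a b => by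
          simp only [map_mul, map_inv, CharBasics.isClassFunction (isCharacter_of_irr φ.2) _ _]
        have hs := sum_section_sq hxk hw
        rw [Finset.sum_congr rfl (g := fun χ : IrrCharacter G => (Nat.card A : ℂ)⁻¹ * (Nat.card A : ℂ)⁻¹ * (regTotal p (fun h : Subgroup.centralizer ({x} : Set G) =>
          shiftFun x (χ : G → ℂ) h * conj ((φ : A → ℂ) (QuotientGroup.mk' _ h))) *
          conj (regTotal p (fun h : Subgroup.centralizer ({x} : Set G) =>
            shiftFun x (χ : G → ℂ) h * conj ((φ : A → ℂ) (QuotientGroup.mk' _ h)))))) (fun _ _ => by ring),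
          ← Finset.mul_sum, hs, ← hmul, Nat.cast_mul, ← regTotal_lift _ hc hZ]
        have e : ∀ a : A, (if p ∣ orderOf a then (0:ℂ) else
            conj ((φ : A → ℂ) (QuotientGroup.mk' _ (lift (Subgroup.zpowers z) p a))) *
            conj (conj ((φ : A → ℂ) (QuotientGroup.mk' _ (lift (Subgroup.zpowers z) p a))))) =
            if p ∣ orderOf a then 0 else (φ : A → ℂ) a * conj ((φ : A → ℂ) a) := fun a => by
          split_ifs with ha
          · rfl
          · rw [mk_lift _ hc hZ, (part_of_regular (p := p) ha).2, Complex.conj_conj, mul_comm]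
        simp only [regTotal] at e ⊢
        rw [Finset.sum_congr rfl fun a _ => e a]
        ring
      rw [Finset.sum_congr rfl fun φ _ => hone φ, ← Finset.mul_sum, hsum]
      field_simp
    rw [Complex.ofReal_inj.1 htot]
    exact mul_le_mul_of_nonneg_left (by exact_mod_cast hr) (by positivity)
  · let aj : IrrCharacter A → ℕ → ℂ := fun φ j => (Nat.card A : ℂ)⁻¹ *
      ∑ a : A, (χ : G → ℂ) ((x * ((lift (Subgroup.zpowers z) p a : Subgroup.centralizer ({x} : Set G)) : G)) ^ j) * (φ : A → ℂ) ((a⁻¹) ^ j)
    let bj : IrrCharacter A → ℕ → ℂ := fun ξ j =>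
      aj ξ j + (ε : ℂ) * (εX ξ : ℂ) * ∑ θ ∈ Y, aj θ j
    have haj : ∀ j : ℕ, j.Coprime (Nat.card G) → ∀ φ, aj φ j = classInner (g (pw j χ)) (pw j φ : A → ℂ) := by
      intro j hj φ
      rw [classInner_eq]
      simp only [aj]
      congr 1
      refine Finset.sum_congr rfl fun a _ => ?_
      simp only [g, shiftFun, pw_apply hj, pw_apply (hj.coprime_dvd_right hAG), inv_pow,
        apply_inv (isCharacter_of_irr φ.2)]
    have hbj : ∀ j : ℕ, j.Coprime (Nat.card G) → ∀ ξ,
        bj ξ j = coordB (Y.image (pw j)) (Function.extend (pw j) εX 0) ε (g (pw j χ)) (pw j ξ) := by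
      intro j hj ξ
      have hi := pw_injective (A := A) (hj.coprime_dvd_right hAG)
      simp only [bj, coordB, hi.extend_apply, haj j hj]
      rw [Finset.sum_image fun a _ b _ h => hi h]
    have haint : ∀ φ j, j.Coprime (Nat.card G) → IsIntegral ℤ (aj φ j) := by
      intro φ j hj
      rw [haj j hj φ]
      exact isIntegral_inner_lift _ hc hZ
        (isClassFunction_shiftFun (x := x) (CharBasics.isClassFunction (isCharacter_of_irr (pw j χ).2)))
        (isIntegral_shift_inner (isCharacter_of_irr (pw j χ).2) x) _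
    have hapoly : ∀ φ : IrrCharacter A, PolyFam (Nat.card G) fun j => (Nat.card A : ℂ) * aj φ j := by
      intro φ
      have h := PolyFam.sum (N := Nat.card G) Finset.univ (fun (a : A) j =>
        (χ : G → ℂ) ((x * ((lift (Subgroup.zpowers z) p a : Subgroup.centralizer ({x} : Set G)) : G)) ^ j) * (φ : A → ℂ) ((a⁻¹) ^ j)) (fun a _ =>
        (PolyFam.char Nat.card_pos.ne' dvd_rfl (isCharacter_of_irr χ.2) _).mul
          (PolyFam.char Nat.card_pos.ne' hAG (isCharacter_of_irr φ.2) _))
      simpa [aj, mul_inv_cancel_left₀ hAC] using h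
    have hbint : ∀ ξ j, j.Coprime (Nat.card G) → IsIntegral ℤ (bj ξ j) := fun ξ j hj =>
      (haint ξ j hj).add (((isIntegral_algebraMap (R := ℤ) (x := ε)).mul (isIntegral_algebraMap (R := ℤ) (x := εX ξ))).mul
        (IsIntegral.sum _ fun θ _ => haint θ j hj))
    have hbpoly : ∀ ξ, PolyFam (Nat.card G) fun j => (Nat.card A : ℂ) * bj ξ j := by
      intro ξ
      have h := (hapoly ξ).add (((PolyFam.int (Nat.card G) ε).mul (PolyFam.int (Nat.card G) (εX ξ))).mul
        (PolyFam.sum Y (fun θ j => (Nat.card A : ℂ) * aj θ j) fun θ _ => hapoly θ))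
      convert h using 1
      funext j
      simp only [bj, ← Finset.mul_sum]
      ring
    set supp := X.filter (fun ξ => bj ξ 1 ≠ 0) with hsupp
    have hgal := fun ξ (hξ : ξ ∈ supp) => galois_avg Nat.card_pos.ne' (Nat.card A) Nat.card_pos.ne' (bj ξ) (hbpoly ξ)
      (hbint ξ) 1 (Nat.coprime_one_left _) (Finset.mem_filter.1 hξ).2
    have hone : pw 1 χ = χ := Subtype.ext (funext fun g => by rw [pw_apply (Nat.coprime_one_left _), pow_one])
    have hzero : ∀ ξ ∈ X, ξ ∉ supp → ∀ j : ℕ, j.Coprime (Nat.card G) → bj ξ j = 0 := by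
      intro ξ hξX hξ j hj
      by_contra h
      exact hξ (Finset.mem_filter.2 ⟨hξX, (galois_avg Nat.card_pos.ne' (Nat.card A) Nat.card_pos.ne' (bj ξ) (hbpoly ξ)
        (hbint ξ) j hj h).1 1 (Nat.coprime_one_left _)⟩)
    have hn1 : supp.Nonempty := by
      by_contra hne
      rw [Finset.not_nonempty_iff_eq_empty] at hne
      refine regSum_ne_zero hM hxk hχ hdeg ?_
      have hj1 : (1 : ℕ).Coprime (Nat.card A) := Nat.coprime_one_left _
      have S1 := S.pow hj1
      have hb0 : ∀ ξ ∈ X.image (pw 1), coordB (Y.image (pw 1)) (Function.extend (pw 1) εX 0) ε (g χ) ξ = 0 := by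
        rw [Finset.forall_mem_image]
        intro ξ hξ
        have h := hzero ξ hξ (by rw [hne]; exact Finset.notMem_empty _) 1 (Nat.coprime_one_left _)
        rwa [hbj 1 (Nat.coprime_one_left _), hone] at h
      have hB : ∑ ψ ∈ X.image (pw 1), ((Function.extend (pw 1) εX 0 ψ : ℤ) : ℂ) *
          coordB (Y.image (pw 1)) (Function.extend (pw 1) εX 0) ε (g χ) ψ = 0 :=
        Finset.sum_eq_zero fun ψ hψ => by rw [hb0 ψ hψ, mul_zero]
      have h0 : classInner (pRegularPart p (g χ)) ((oneChar : IrrCharacter A) : A → ℂ) = 0 := by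
        rcases (S1.mem oneChar).1 (oneChar_mem_principal hM) with h | h
        · rw [S1.coordC_X hM (hgcls χ) h, hb0 _ h, hB, mul_zero, sub_zero]
        · rw [S1.coordC_Y hM (hgcls χ) h, hB, mul_zero]
      rw [hreg, mul_eq_zero] at h0
      simpa [oneChar_apply] using h0.resolve_left (inv_ne_zero hAC)
    have hnX : supp.card ≤ X.card := Finset.card_filter_le _ _
    have hmR : (X.card : ℝ) * m + 1 = p := by exact_mod_cast S.mulm
    have hn0 : (1 : ℝ) ≤ supp.card := by exact_mod_cast hn1.card_pos
    have hnXR : (supp.card : ℝ) ≤ X.card := by exact_mod_cast hnX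
    have hfac : 0 ≤ (p : ℝ) - m * supp.card := by
      nlinarith [mul_le_mul_of_nonneg_left hnXR (Nat.cast_nonneg (α := ℝ) m)]
    have hkey : (X.card : ℝ) ≤ ((p : ℝ) - m * supp.card) * supp.card := by
      rcases Nat.eq_zero_or_pos m with hm0 | hm0
      · have := S.mulm
        rw [hm0, mul_zero, zero_add] at this
        exact absurd this.symm hp.out.one_lt.ne'
      · have : (1 : ℝ) ≤ m := by exact_mod_cast hm0
        nlinarith [mul_nonneg (sub_nonneg.2 hnXR) (show (0 : ℝ) ≤ m * supp.card - 1 by nlinarith)]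
    have hJ : (((coprimeResidues (Nat.card G)).card : ℝ)) * supp.card ≤
        ∑ j ∈ coprimeResidues (Nat.card G), ∑ ξ ∈ supp, ‖bj ξ j‖ ^ 2 := by
      rw [Finset.sum_comm]
      calc ((coprimeResidues (Nat.card G)).card : ℝ) * supp.card
          = ∑ _ξ ∈ supp, ((coprimeResidues (Nat.card G)).card : ℝ) := by rw [Finset.sum_const, nsmul_eq_mul, mul_comm]
        _ ≤ _ := Finset.sum_le_sum fun ξ hξ => (hgal ξ hξ).2
    have hq : ∀ j ∈ coprimeResidues (Nat.card G),
        ((p : ℝ) - m * supp.card) * ∑ ξ ∈ supp, ‖bj ξ j‖ ^ 2 ≤ q (pw j χ) := by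
      intro j hj
      have hjc : j.Coprime (Nat.card G) := (Finset.mem_filter.1 hj).2
      have hjA := hjc.coprime_dvd_right hAG
      have Sj := S.pow hjA
      have h := Sj.quad hM (hgcls (pw j χ))
      have hun : X.image (pw j) ∪ Y.image (pw j) = P0 := by
        ext φ; rw [Finset.mem_union, Finset.mem_union, ← Sj.mem, S.mem]
      have hfil : ((X.image (pw j)).filter fun ξ =>
          coordB (Y.image (pw j)) (Function.extend (pw j) εX 0) ε (g (pw j χ)) ξ ≠ 0) = supp.image (pw j) := by
        rw [Finset.filter_image, hsupp]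
        refine congrArg _ (Finset.filter_congr fun ξ hξ => ?_)
        rw [← hbj j hjc]
        constructor
        · intro hne h1
          exact hne (hzero ξ hξ (fun h => (Finset.mem_filter.1 h).2 h1) j hjc)
        · exact fun hne => (hgal ξ (Finset.mem_filter.2 ⟨hξ, hne⟩)).1 j hjc
      rw [hfil, Finset.card_image_of_injective _ (pw_injective hjA),
        Finset.sum_image fun a _ b _ h => pw_injective hjA h, hun] at h
      refine le_trans (mul_le_mul_of_nonneg_left ?_ hfac) h
      refine le_of_le_of_eq (Finset.sum_le_sum_of_subset_of_nonneg (Finset.filter_subset _ _) fun ξ _ _ => by positivity)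
        (Finset.sum_congr rfl fun ξ _ => by rw [hbj j hjc])
    calc ((coprimeResidues (Nat.card G)).card : ℝ) * X.card
        ≤ ((coprimeResidues (Nat.card G)).card : ℝ) * (((p : ℝ) - m * supp.card) * supp.card) :=
          mul_le_mul_of_nonneg_left hkey (Nat.cast_nonneg _)
      _ = ((p : ℝ) - m * supp.card) * (((coprimeResidues (Nat.card G)).card : ℝ) * supp.card) := by ring
      _ ≤ ((p : ℝ) - m * supp.card) * ∑ j ∈ coprimeResidues (Nat.card G), ∑ ξ ∈ supp, ‖bj ξ j‖ ^ 2 :=
          mul_le_mul_of_nonneg_left hJ hfac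
      _ ≤ _ := by rw [Finset.mul_sum]; exact Finset.sum_le_sum hq

end CfsgLib.HeightZeroSec
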